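import Mathlib

/-!
# S5746 (helper9 team project XP): the abstract pieces

`G₂(4)` on the cosets of `J₂` is extremely primitive.  Four generic group-theoretic statements
(Mathlib only), each a piece for another seat:

* `StDC`  : two double cosets with two-point stabilisers of index 100 and 315 exhaust a group of
            order `416 * |H|`, so `H` is maximal and every `H ∩ H^x` is maximal in `H`;
* `StIso` : two groups acting faithfully on `Fin n` whose generators act by the same permutations
            are isomorphic (compatibly);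
* `StPsi` : a subgroup generated by elements that permute an injective family by conjugation acts
            on the index set;
* `StR3`  : a subgroup of index 100 with suborbits 36 and 63 is maximal.
-/

set_option autoImplicit false

universe u

namespace Cfsg.Agent.H9.XP

/-- XP-DC. -/
def StDC : Prop :=
  ∀ (G : Type u) [Group G] [Finite G] (H U C : Subgroup G) (a b : G),
    U ≤ H → U ≤ H.map (MulAut.conj a).toMonoidHom → IsCoatom (U.subgroupOf H) →
    (U.subgroupOf H).index = 100 →
    C ≤ H → C ≤ H.map (MulAut.conj b).toMonoidHom → IsCoatom (C.subgroupOf H) →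
    (C.subgroupOf H).index = 315 →
    ¬ H ≤ H.map (MulAut.conj a).toMonoidHom → ¬ H ≤ H.map (MulAut.conj b).toMonoidHom →
    Nat.card G = 416 * Nat.card H →
    IsCoatom H ∧
      ∀ x : G, x ∉ H → IsCoatom ((H ⊓ H.map (MulAut.conj x).toMonoidHom).subgroupOf H)

/-- XP-ISO. -/
def StIso : Prop :=
  ∀ (J : Type) [Group J] (K : Type u) [Group K] (n : ℕ) (φ : J →* Equiv.Perm (Fin n))
    (ψ : K →* Equiv.Perm (Fin n)) (ι : Type) (f : ι → J) (m : ι → K),
    Function.Injective φ → Function.Injective ψ →
    Subgroup.closure (Set.range f) = ⊤ → Subgroup.closure (Set.range m) = ⊤ →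
    (∀ i, φ (f i) = ψ (m i)) →
    ∃ Θ : J ≃* K, (∀ i, Θ (f i) = m i) ∧ ∀ x, ψ (Θ x) = φ x

/-- XP-PSI. -/
def StPsi : Prop :=
  ∀ (G : Type u) [Group G] (M : Type) [Monoid M] (ρ : G →* Mˣ) (n : ℕ) (μ : Fin n → M),
    Function.Injective μ →
    ∀ (ι : Type) (g : ι → G) (t : ι → Fin n → Fin n),
    (∀ i j, ((ρ (g i) : Mˣ) : M) * μ j * (((ρ (g i))⁻¹ : Mˣ) : M) = μ (t i j)) →
    ∃ ψ : ↥(Subgroup.closure (Set.range g)) →* Equiv.Perm (Fin n),
      ∀ (h : ↥(Subgroup.closure (Set.range g))) (j : Fin n),
        ((ρ (h : G) : Mˣ) : M) * μ j * (((ρ (h : G))⁻¹ : Mˣ) : M) = μ (ψ h j)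

/-- XP-R3. -/
def StR3 : Prop :=
  ∀ (G : Type) [Group G] [Finite G] (H : Subgroup G), H.index = 100 →
    (∃ c₁ c₂ : G ⧸ H, (MulAction.orbit ↥H c₁).ncard = 36 ∧ (MulAction.orbit ↥H c₂).ncard = 63) →
    IsCoatom H

end Cfsg.Agent.H9.XP
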