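import Cfsg.Agent.H9.Duad

/-!
# Duads in `M22` (helper9): pairs as masks, counting, and the rank 4 statement
-/

set_option autoImplicit false

namespace Cfsg.Agent.H9

open Cfsg Cfsg.Agent.H33
open scoped Pointwise

theorem fs_two_pow {i : ℕ} (hi : i < 24) : fs (2 ^ i) = {gPt i} := by
  ext p
  rw [mem_fs, Nat.testBit_two_pow, Finset.mem_singleton]
  constructor
  · intro h
    have h1 : i = gIdx p := by simpa using h
    rw [h1, gPt_gIdx]
  · intro h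
    rw [h, gIdx_gPt hi]
    simp

theorem pmN_eq (n : ℕ) : pmN n = 2 ^ (n / 24) ||| 2 ^ (n % 24) := by
  unfold pmN
  show (1 <<< (n / 24)) ||| (1 <<< (n % 24)) = _
  rw [Nat.one_shiftLeft, Nat.one_shiftLeft]

theorem fs_pmN {n : ℕ} (hn : n < 576) : fs (pmN n) = {gPt (n / 24), gPt (n % 24)} := by
  rw [pmN_eq, fs_or, fs_two_pow (by omega), fs_two_pow (Nat.mod_lt _ (by norm_num)),
    Finset.insert_eq]

theorem exists_pair_code {t : Finset GolayPt} (ht : t.card = 2) :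
    ∃ n, n < 576 ∧ pmValid n = true ∧ t = fs (pmN n) := by
  obtain ⟨x, y, hxy, rfl⟩ := Finset.card_eq_two.mp ht
  have hne : gIdx x ≠ gIdx y := fun h => hxy (gIdx_injective h)
  have hx := gIdx_lt x
  have hy := gIdx_lt y
  have key : ∀ a b : GolayPt, gIdx a < gIdx b →
      ∃ n, n < 576 ∧ pmValid n = true ∧ ({a, b} : Finset GolayPt) = fs (pmN n) := by
    intro a b h
    have ha := gIdx_lt a
    have hb := gIdx_lt b
    have e1 : (24 * gIdx a + gIdx b) / 24 = gIdx a := by omega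
    have e2 : (24 * gIdx a + gIdx b) % 24 = gIdx b := by omega
    refine ⟨24 * gIdx a + gIdx b, by omega, ?_, ?_⟩
    · show Nat.blt ((24 * gIdx a + gIdx b) / 24) ((24 * gIdx a + gIdx b) % 24) = true
      rw [e1, e2]
      simpa [Nat.blt_eq] using h
    · rw [fs_pmN (by omega), e1, e2, gPt_gIdx, gPt_gIdx]
  rcases Nat.lt_or_gt_of_ne hne with h | h
  · exact key x y h
  · obtain ⟨n, h1, h2, h3⟩ := key y x h
    exact ⟨n, h1, h2, by rw [← h3, Finset.pair_comm]⟩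

/-- index of the lowest set bit -/
def bitIdx : ℕ → ℕ → ℕ
  | 0, _ => 0
  | f + 1, m => cond (Nat.beq (Nat.land m 1) 1) 0 (Nat.succ (bitIdx f (Nat.shiftRight m 1)))

/-- decoding of a pair mask -/
def pmDec (m : ℕ) : ℕ :=
  Nat.add (Nat.mul 24 (bitIdx 24 m))
    (bitIdx 24 (Nat.sub m (Nat.shiftLeft 1 (bitIdx 24 m))))

theorem pm_facts : allB (fun n => !(pmValid n) || (Nat.beq (pcT (pmN n)) 2 &&
    (Nat.blt (pmN n) 16777216 && Nat.beq (pmDec (pmN n)) n))) 576 = true := by decide +kernel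

theorem pm_facts' {n : ℕ} (hn : n < 576) (hv : pmValid n = true) :
    pcT (pmN n) = 2 ∧ pmN n < 2 ^ 24 ∧ pmDec (pmN n) = n := by
  have h := (allB_iff _ _).mp pm_facts n hn
  simp only [Bool.or_eq_true, Bool.and_eq_true, Bool.not_eq_true', hv] at h
  rcases h with h0 | ⟨h1, h2, h3⟩
  · exact absurd h0 (by simp)
  · exact ⟨Nat.eq_of_beq_eq_true h1, by simpa [Nat.blt_eq] using h2, Nat.eq_of_beq_eq_true h3⟩

theorem ncard_pairs_filter (f : ℕ → Bool) (hf : ∀ n, f n = true → pmValid n = true) :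
    {t : Finset GolayPt | ∃ n, n < 576 ∧ f n = true ∧ t = fs (pmN n)}.ncard = countB f 576 := by
  rw [countB_eq]
  have h : {t : Finset GolayPt | ∃ n, n < 576 ∧ f n = true ∧ t = fs (pmN n)}
      = (fun n => fs (pmN n)) ''
        (((Finset.range 576).filter (fun n => f n = true) : Finset ℕ) : Set ℕ) := by
    ext s
    simp only [Set.mem_ofPred_eq, Set.mem_image, Finset.coe_filter, Finset.mem_range]
    constructor
    · rintro ⟨k, hk, hf, rfl⟩
      exact ⟨k, ⟨hk, hf⟩, rfl⟩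
    · rintro ⟨k, ⟨hk, hf⟩, rfl⟩
      exact ⟨k, hk, hf, rfl⟩
  rw [h, Set.InjOn.ncard_image, Set.ncard_coe_finset]
  intro a ha b hb hab
  simp only [Finset.coe_filter, Finset.mem_range, Set.mem_ofPred_eq] at ha hb
  have ha' := pm_facts' ha.1 (hf a ha.2)
  have hb' := pm_facts' hb.1 (hf b hb.2)
  have h1 := fs_inj ha'.2.1 hb'.2.1 hab
  rw [← ha'.2.2, ← hb'.2.2, h1]

theorem fs_subset_iff (a b : ℕ) : fs a ⊆ fs b ↔ pcT (Nat.land a b) = pcT a := by
  rw [← card_inter_fs, ← card_fs']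
  constructor
  · intro h
    rw [Finset.inter_eq_left.mpr h]
  · intro h
    exact Finset.inter_eq_left.mp (Finset.eq_of_subset_of_card_le Finset.inter_subset_left h.ge)

theorem gPt_mem_fs {m i : ℕ} (hi : i < 24) : gPt i ∈ fs m ↔ tb m i = true := by
  rw [mem_fs, gIdx_gPt hi, tb_eq]

theorem duoOct5_ok : duoOct5.all (fun W => isGolay W && (Nat.beq (pcT W) 8 && (tb W 0 && (tb W 1 &&
    Nat.beq (pcT (Nat.land 12 W)) 2)))) = true := by decide +kernel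

theorem duoOct5_all : allB (fun k => !(Nat.beq (pcT (cwN k)) 8 && (tb (cwN k) 0 && (tb (cwN k) 1 &&
    (tb (cwN k) 2 && tb (cwN k) 3)))) || memB (cwN k) duoOct5) 4096 = true := by decide +kernel

theorem duoOct_iff (m : ℕ) : duoOct m = true ↔
    ∃ o ∈ octads, gPt 0 ∈ o ∧ gPt 1 ∈ o ∧ fs 12 ∪ fs m ⊆ o := by
  constructor
  · intro h
    obtain ⟨W, hW, hWm⟩ := List.any_eq_true.mp h
    have h1 := List.all_eq_true.mp duoOct5_ok W hW
    simp only [Bool.and_eq_true] at h1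
    obtain ⟨a1, a2, a3, a4, a5⟩ := h1
    refine ⟨fs W, fs_mem_octads a1 (Nat.eq_of_beq_eq_true a2), (gPt_mem_fs (by norm_num)).mpr a3,
      (gPt_mem_fs (by norm_num)).mpr a4, Finset.union_subset ?_ ?_⟩
    · rw [fs_subset_iff]
      exact Nat.eq_of_beq_eq_true a5
    · rw [fs_subset_iff]
      exact Nat.eq_of_beq_eq_true hWm
  · rintro ⟨o, ho, h0, h1, hsub⟩
    obtain ⟨k, hk, rfl⟩ := (mem_supports_iff o).mp ho.1
    have hc := ho.2
    rw [card_fs'] at hc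
    have h2 : gPt 2 ∈ fs (cw k) :=
      hsub (Finset.mem_union_left _ ((gPt_mem_fs (by norm_num)).mpr (by decide)))
    have h3 : gPt 3 ∈ fs (cw k) :=
      hsub (Finset.mem_union_left _ ((gPt_mem_fs (by norm_num)).mpr (by decide)))
    rw [gPt_mem_fs (by norm_num)] at h0 h1 h2 h3
    have hall := (allB_iff _ _).mp duoOct5_all k hk
    rw [cwN_eq] at hall
    simp only [Bool.or_eq_true, Bool.and_eq_true, Bool.not_eq_true', h0, h1, h2, h3, hc] at hall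
    rcases hall with hall | hall
    · exact absurd hall (by simp)
    · have hmem := (memB_iff _ _).mp hall
      refine List.any_eq_true.mpr ⟨cw k, hmem, ?_⟩
      have h4 : fs m ⊆ fs (cw k) := (Finset.union_subset_iff.mp hsub).2
      rw [fs_subset_iff] at h4
      rw [h4]
      exact Nat.beq_refl _

theorem duoCls_valid {c : ℕ} {b : Bool} {n : ℕ} (h : duoCls c b n = true) : pmValid n = true := by
  unfold duoCls at h
  rw [Bool.and_eq_true] at h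
  exact h.1

theorem duoCls_iff {n : ℕ} (hv : pmValid n = true) (c : ℕ) (b : Bool) :
    duoCls c b n = true ↔ (gPt 0 ∉ fs (pmN n) ∧ gPt 1 ∉ fs (pmN n)) ∧
      (fs 12 ∩ fs (pmN n)).card = c ∧
      ((∃ o ∈ octads, gPt 0 ∈ o ∧ gPt 1 ∈ o ∧ fs 12 ∪ fs (pmN n) ⊆ o) ↔ b = true) := by
  unfold duoCls
  rw [← duoOct_iff, card_inter_fs, gPt_mem_fs (by norm_num), gPt_mem_fs (by norm_num)]
  simp only [Bool.and_eq_true, hv, true_and, Bool.not_eq_true', Bool.not_eq_true, beq_iff_eq]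
  constructor
  · rintro ⟨h0, h1, h2, h3⟩
    exact ⟨⟨h0, h1⟩, Nat.eq_of_beq_eq_true h2, by rw [h3]⟩
  · rintro ⟨⟨h0, h1⟩, h2, h3⟩
    refine ⟨h0, h1, by rw [h2]; exact Nat.beq_refl _, ?_⟩
    cases b <;> simp_all

theorem duo_set (b : Bool) :
    {t : Finset GolayPt | (t.card = 2 ∧ gPt 0 ∉ t ∧ gPt 1 ∉ t) ∧ Disjoint (fs 12) t ∧
      ((∃ o ∈ octads, gPt 0 ∈ o ∧ gPt 1 ∈ o ∧ fs 12 ∪ t ⊆ o) ↔ b = true)}
      = {t : Finset GolayPt | ∃ n, n < 576 ∧ duoCls 0 b n = true ∧ t = fs (pmN n)} := by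
  ext t
  constructor
  · rintro ⟨⟨hc, h0, h1⟩, hd, ho⟩
    obtain ⟨n, hn, hv, rfl⟩ := exists_pair_code hc
    exact ⟨n, hn, (duoCls_iff hv 0 b).mpr ⟨⟨h0, h1⟩, by
      rw [Finset.card_eq_zero, ← Finset.disjoint_iff_inter_eq_empty]; exact hd, ho⟩, rfl⟩
  · rintro ⟨n, hn, hcls, rfl⟩
    have hv : pmValid n = true := duoCls_valid hcls
    obtain ⟨⟨h0, h1⟩, h2, h3⟩ := (duoCls_iff hv 0 b).mp hcls
    exact ⟨⟨by rw [card_fs']; exact (pm_facts' hn hv).1, h0, h1⟩, by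
      rw [Finset.disjoint_iff_inter_eq_empty, ← Finset.card_eq_zero]; exact h2, h3⟩

theorem duo_ncard (b : Bool) :
    {t : Finset GolayPt | (t.card = 2 ∧ gPt 0 ∉ t ∧ gPt 1 ∉ t) ∧ Disjoint (fs 12) t ∧
      ((∃ o ∈ octads, gPt 0 ∈ o ∧ gPt 1 ∈ o ∧ fs 12 ∪ t ⊆ o) ↔ b = true)}.ncard
      = countB (duoCls 0 b) 576 := by
  rw [duo_set]
  exact ncard_pairs_filter _ (fun n h => duoCls_valid h)

theorem duo_ncard_t :
    {t : Finset GolayPt | (t.card = 2 ∧ gPt 0 ∉ t ∧ gPt 1 ∉ t) ∧ Disjoint (fs 12) t ∧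
      (∃ o ∈ octads, gPt 0 ∈ o ∧ gPt 1 ∈ o ∧ fs 12 ∪ t ⊆ o)}.ncard = 30 := by
  have h := duo_ncard true
  simp only [iff_true] at h
  rw [h, duo_count_t]

theorem duo_ncard_f :
    {t : Finset GolayPt | (t.card = 2 ∧ gPt 0 ∉ t ∧ gPt 1 ∉ t) ∧ Disjoint (fs 12) t ∧
      ¬ (∃ o ∈ octads, gPt 0 ∈ o ∧ gPt 1 ∈ o ∧ fs 12 ∪ t ⊆ o)}.ncard = 160 := by
  have h := duo_ncard false
  simp only [Bool.false_eq_true, iff_false] at h
  rw [h, duo_count_f]

theorem fix_of_smul_two_pow {g : Equiv.Perm GolayPt} {i : ℕ} (hi : i < 24)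
    (h : g • fs (2 ^ i) = fs (2 ^ i)) : g (gPt i) = gPt i := by
  rw [fs_two_pow hi, Finset.smul_finset_singleton, Finset.singleton_inj] at h
  exact h

/-- the stabiliser of `gPt 0`, `gPt 1` and the pair `fs 12` is transitive on each class of
pairs -/
theorem duo_trans {t t' : Finset GolayPt} (ht : t.card = 2 ∧ gPt 0 ∉ t ∧ gPt 1 ∉ t)
    (ht' : t'.card = 2 ∧ gPt 0 ∉ t' ∧ gPt 1 ∉ t') (hts : t ≠ fs 12) (hts' : t' ≠ fs 12)
    (hc : (fs 12 ∩ t).card = (fs 12 ∩ t').card)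
    (ho : (∃ o ∈ octads, gPt 0 ∈ o ∧ gPt 1 ∈ o ∧ fs 12 ∪ t ⊆ o) ↔
      (∃ o ∈ octads, gPt 0 ∈ o ∧ gPt 1 ∈ o ∧ fs 12 ∪ t' ⊆ o)) :
    ∃ g : Equiv.Perm GolayPt, g ∈ M24 ∧ g (gPt 0) = gPt 0 ∧ g (gPt 1) = gPt 1 ∧
      g • fs 12 = fs 12 ∧ g • t = t' := by
  obtain ⟨n, hn, hv, rfl⟩ := exists_pair_code ht.1
  obtain ⟨n', hn', hv', rfl⟩ := exists_pair_code ht'.1
  obtain ⟨b, hb⟩ : ∃ b, duoOct (pmN n) = b := ⟨_, rfl⟩
  have hcls : duoCls (fs 12 ∩ fs (pmN n)).card b n = true :=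
    (duoCls_iff hv _ b).mpr ⟨ht.2, rfl, by rw [← duoOct_iff, hb]⟩
  have hcls' : duoCls (fs 12 ∩ fs (pmN n)).card b n' = true :=
    (duoCls_iff hv' _ b).mpr ⟨ht'.2, hc.symm, by rw [← ho, ← duoOct_iff, hb]⟩
  have hc2 : (fs 12 ∩ fs (pmN n)).card ≠ 2 := by
    intro h2
    have e1 : fs 12 ∩ fs (pmN n) = fs 12 :=
      Finset.eq_of_subset_of_card_le Finset.inter_subset_left (by rw [h2, card_fs']; decide)
    have e2 : fs 12 ⊆ fs (pmN n) := Finset.inter_eq_left.mp e1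
    have e3 : fs 12 = fs (pmN n) :=
      Finset.eq_of_subset_of_card_le e2 (by rw [ht.1, card_fs']; decide)
    exact hts e3.symm
  have hcle : (fs 12 ∩ fs (pmN n)).card ≤ 2 :=
    le_trans (Finset.card_le_card Finset.inter_subset_left) (by rw [card_fs']; decide)
  have key : ∀ (c E T POS N : ℕ), chkTree duoG duoNg E T N = true →
      chkPosP (duoCls c b) E POS N = true → duoCls c b n = true → duoCls c b n' = true →
      ∃ g : Equiv.Perm GolayPt, g ∈ M24 ∧ g (gPt 0) = gPt 0 ∧ g (gPt 1) = gPt 1 ∧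
        g • fs 12 = fs 12 ∧ g • fs (pmN n) = fs (pmN n') := by
    intro c E T POS N hT hP h1 h2
    obtain ⟨g, hg, e⟩ := classP_trans (stabOf [1, 2, 12]) duoG duoNg E T POS N (duoCls c b)
      (gens_sound duo_gens) hT hP n n' hn hn' h1 h2
    exact ⟨g, hg.1, fix_of_smul_two_pow (i := 0) (by norm_num) (hg.2 1 (by simp)),
      fix_of_smul_two_pow (i := 1) (by norm_num) (hg.2 2 (by simp)), hg.2 12 (by simp), e⟩
  generalize (fs 12 ∩ fs (pmN n)).card = c at hcls hcls' hc2 hcle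
  interval_cases c
  · cases b
    · exact key 0 _ _ _ _ duo_c0fT duo_c0fP hcls hcls'
    · exact key 0 _ _ _ _ duo_c0tT duo_c0tP hcls hcls'
  · cases b
    · exact key 1 _ _ _ _ duo_c1fT duo_c1fP hcls hcls'
    · exact key 1 _ _ _ _ duo_c1tT duo_c1tP hcls hcls'
  · exact absurd rfl hc2

theorem ncard_smul_set {Q Q0 : Finset GolayPt → Prop} (h : Equiv.Perm GolayPt)
    (hQ : ∀ t0, Q (h • t0) ↔ Q0 t0) : {t | Q t}.ncard = {t | Q0 t}.ncard := by
  have e : {t | Q t} = (fun t : Finset GolayPt => h • t) '' {t | Q0 t} := by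
    ext t
    constructor
    · intro ht
      exact ⟨h⁻¹ • t, (hQ _).mp (by rw [smul_inv_smul]; exact ht), smul_inv_smul h t⟩
    · rintro ⟨t0, ht0, rfl⟩
      exact (hQ t0).mpr ht0
  rw [e, Set.ncard_image_of_injective _ (MulAction.injective h)]

/-- the embedding attached to four distinct points -/
def emb4 {α : Type*} (p q a b : α) (hpq : p ≠ q) (hpa : p ≠ a) (hpb : p ≠ b) (hqa : q ≠ a)
    (hqb : q ≠ b) (hab : a ≠ b) : Fin 4 ↪ α :=
  ⟨![p, q, a, b], by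
    intro i j h
    fin_cases i <;> fin_cases j <;> simp_all⟩

theorem gPt_ne {i j : ℕ} (hi : i < 24) (hj : j < 24) (h : i ≠ j) : gPt i ≠ gPt j := by
  intro e
  have := congrArg gIdx e
  rw [gIdx_gPt hi, gIdx_gPt hj] at this
  exact h this

theorem exists_map4 {p q a b : GolayPt} (hpq : p ≠ q) (hpa : p ≠ a) (hpb : p ≠ b) (hqa : q ≠ a)
    (hqb : q ≠ b) (hab : a ≠ b) :
    ∃ h ∈ M24, h (gPt 0) = p ∧ h (gPt 1) = q ∧ h (gPt 2) = a ∧ h (gPt 3) = b := by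
  have h4 : MulAction.IsMultiplyPretransitive M24 GolayPt 4 := by
    have := m24_five_transitive
    exact MulAction.isMultiplyPretransitive_of_le (n := 5) (by norm_num)
      (by rw [Nat.card_eq_fintype_card, card_golayPt]; norm_num)
  obtain ⟨g, hg⟩ := h4.exists_smul_eq
    (emb4 (gPt 0) (gPt 1) (gPt 2) (gPt 3) (gPt_ne (by norm_num) (by norm_num) (by norm_num))
      (gPt_ne (by norm_num) (by norm_num) (by norm_num))
      (gPt_ne (by norm_num) (by norm_num) (by norm_num))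
      (gPt_ne (by norm_num) (by norm_num) (by norm_num))
      (gPt_ne (by norm_num) (by norm_num) (by norm_num))
      (gPt_ne (by norm_num) (by norm_num) (by norm_num)))
    (emb4 p q a b hpq hpa hpb hqa hqb hab)
  refine ⟨g.1, g.2, ?_, ?_, ?_, ?_⟩
  · exact congrArg (fun f : Fin 4 ↪ GolayPt => f 0) hg
  · exact congrArg (fun f : Fin 4 ↪ GolayPt => f 1) hg
  · exact congrArg (fun f : Fin 4 ↪ GolayPt => f 2) hg
  · exact congrArg (fun f : Fin 4 ↪ GolayPt => f 3) hg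

/-- rank 4 of the stabiliser of two points on the pairs of further points, with the suborbits
of the pairs disjoint from a given one -/
theorem duo_main (p q : GolayPt) (hpq : p ≠ q) (s : Finset GolayPt)
    (hs : (s.card = 2 ∧ p ∉ s ∧ q ∉ s)) :
    {t : Finset GolayPt | (t.card = 2 ∧ p ∉ t ∧ q ∉ t) ∧ Disjoint s t ∧
      (∃ o ∈ octads, p ∈ o ∧ q ∈ o ∧ s ∪ t ⊆ o)}.ncard = 30 ∧
    {t : Finset GolayPt | (t.card = 2 ∧ p ∉ t ∧ q ∉ t) ∧ Disjoint s t ∧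
      ¬ (∃ o ∈ octads, p ∈ o ∧ q ∈ o ∧ s ∪ t ⊆ o)}.ncard = 160 ∧
    ∀ t t' : Finset GolayPt, (t.card = 2 ∧ p ∉ t ∧ q ∉ t) → (t'.card = 2 ∧ p ∉ t' ∧ q ∉ t') →
      t ≠ s → t' ≠ s → (s ∩ t).card = (s ∩ t').card →
      ((∃ o ∈ octads, p ∈ o ∧ q ∈ o ∧ s ∪ t ⊆ o) ↔ (∃ o ∈ octads, p ∈ o ∧ q ∈ o ∧ s ∪ t' ⊆ o)) →
      ∃ g : Equiv.Perm GolayPt, g ∈ M24 ∧ g p = p ∧ g q = q ∧ g • s = s ∧ g • t = t' := by
  obtain ⟨a, b, hab, rfl⟩ := Finset.card_eq_two.mp hs.1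
  have hpa : p ≠ a := fun h => hs.2.1 (by rw [h]; simp)
  have hpb : p ≠ b := fun h => hs.2.1 (by rw [h]; simp)
  have hqa : q ≠ a := fun h => hs.2.2 (by rw [h]; simp)
  have hqb : q ≠ b := fun h => hs.2.2 (by rw [h]; simp)
  obtain ⟨h, hh, h0, h1, h2, h3⟩ := exists_map4 hpq hpa hpb hqa hqb hab
  have hs0 : h • fs 12 = {a, b} := by
    have e : fs 12 = {gPt 2, gPt 3} := fs_pmN (n := 51) (by norm_num)
    rw [e, Finset.smul_finset_insert, Finset.smul_finset_singleton, Equiv.Perm.smul_def,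
      Equiv.Perm.smul_def, h2, h3]
  have hO : ∀ t0 : Finset GolayPt, (∃ o ∈ octads, p ∈ o ∧ q ∈ o ∧ {a, b} ∪ h • t0 ⊆ o) ↔
      (∃ o ∈ octads, gPt 0 ∈ o ∧ gPt 1 ∈ o ∧ fs 12 ∪ t0 ⊆ o) := by
    intro t0
    constructor
    · rintro ⟨o, ho, hp, hq, hsub⟩
      refine ⟨h⁻¹ • o, m24_smul_mem_octads (inv_mem hh) ho, ?_, ?_, ?_⟩
      · rw [Finset.mem_inv_smul_finset_iff, Equiv.Perm.smul_def, h0]
        exact hp
      · rw [Finset.mem_inv_smul_finset_iff, Equiv.Perm.smul_def, h1]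
        exact hq
      · rw [← Finset.smul_finset_subset_iff, Finset.smul_finset_union, hs0]
        exact hsub
    · rintro ⟨o, ho, hp, hq, hsub⟩
      refine ⟨h • o, m24_smul_mem_octads hh ho, ?_, ?_, ?_⟩
      · rw [← h0]
        exact Finset.smul_mem_smul_finset hp
      · rw [← h1]
        exact Finset.smul_mem_smul_finset hq
      · rw [← hs0, ← Finset.smul_finset_union]
        exact Finset.smul_finset_subset_smul_finset hsub
  have hA : ∀ t0 : Finset GolayPt, ((h • t0).card = 2 ∧ p ∉ h • t0 ∧ q ∉ h • t0) ↔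
      (t0.card = 2 ∧ gPt 0 ∉ t0 ∧ gPt 1 ∉ t0) := by
    intro t0
    have e : ∀ x : GolayPt, h x ∈ h • t0 ↔ x ∈ t0 := fun x => Finset.smul_mem_smul_finset_iff h
    rw [Finset.card_smul_finset, ← h0, ← h1, e, e]
  have hD : ∀ t0 : Finset GolayPt, Disjoint ({a, b} : Finset GolayPt) (h • t0) ↔
      Disjoint (fs 12) t0 := by
    intro t0
    rw [← hs0, Finset.disjoint_iff_inter_eq_empty, Finset.disjoint_iff_inter_eq_empty,
      ← Finset.smul_finset_inter, Finset.smul_finset_eq_empty]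
  refine ⟨?_, ?_, ?_⟩
  · rw [ncard_smul_set h (Q0 := fun t0 => (t0.card = 2 ∧ gPt 0 ∉ t0 ∧ gPt 1 ∉ t0) ∧
      Disjoint (fs 12) t0 ∧ ∃ o ∈ octads, gPt 0 ∈ o ∧ gPt 1 ∈ o ∧ fs 12 ∪ t0 ⊆ o)
      (fun t0 => by rw [hA, hD, hO])]
    exact duo_ncard_t
  · rw [ncard_smul_set h (Q0 := fun t0 => (t0.card = 2 ∧ gPt 0 ∉ t0 ∧ gPt 1 ∉ t0) ∧
      Disjoint (fs 12) t0 ∧ ¬ ∃ o ∈ octads, gPt 0 ∈ o ∧ gPt 1 ∈ o ∧ fs 12 ∪ t0 ⊆ o)
      (fun t0 => by rw [hA, hD, hO])]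
    exact duo_ncard_f
  · intro t t' ht ht' hts hts' hc ho
    obtain ⟨t0, rfl⟩ : ∃ t0, t = h • t0 := ⟨h⁻¹ • t, (smul_inv_smul h t).symm⟩
    obtain ⟨t0', rfl⟩ : ∃ t0', t' = h • t0' := ⟨h⁻¹ • t', (smul_inv_smul h t').symm⟩
    rw [hA] at ht ht'
    rw [hO, hO] at ho
    have hts0 : t0 ≠ fs 12 := fun e => hts (by rw [e, hs0])
    have hts0' : t0' ≠ fs 12 := fun e => hts' (by rw [e, hs0])
    have hc0 : (fs 12 ∩ t0).card = (fs 12 ∩ t0').card := by
      have e : ∀ u : Finset GolayPt, (({a, b} : Finset GolayPt) ∩ h • u).card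
          = (fs 12 ∩ u).card := by
        intro u
        rw [← hs0, ← Finset.smul_finset_inter, Finset.card_smul_finset]
      rw [← e, ← e]
      exact hc
    obtain ⟨g0, hg0, e0, e1, e2, e3⟩ := duo_trans ht ht' hts0 hts0' hc0 ho
    refine ⟨h * g0 * h⁻¹, mul_mem (mul_mem hh hg0) (inv_mem hh), ?_, ?_, ?_, ?_⟩
    · rw [← h0]
      simp [e0]
    · rw [← h1]
      simp [e1]
    · rw [← hs0, mul_smul, mul_smul, inv_smul_smul, e2]
    · rw [mul_smul, mul_smul, inv_smul_smul, e3]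

end Cfsg.Agent.H9
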