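import Mathlib

/-!
helper9: definitions and exact piece statements for S5321 (the 2-fusion system of `J2` is simple).

`FD J` is the 2-local data of a group `J` "of `J2`-type": an involution `t` whose centraliser `C`
maps onto `A5` (by `φ`) with kernel `Q` of order 32 such that `C_J(Q) ≤ Q`, `Z(Q) = {1, t}`,
`Q` is generated by `J`-conjugates of `t`, and `Q` is not strongly closed in `C`.
-/

set_option autoImplicit false

namespace Cfsg.Agent.H9.J2F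

universe u

/-- the kernel of `φ : C →* Perm (Fin 5)`, as a subgroup of `J` -/
def kerJ {J : Type u} [Group J] (C : Subgroup J) (φ : ↥C →* Equiv.Perm (Fin 5)) : Subgroup J :=
  φ.ker.map C.subtype

theorem mem_kerJ {J : Type u} [Group J] (C : Subgroup J) (φ : ↥C →* Equiv.Perm (Fin 5)) (x : J) :
    x ∈ kerJ C φ ↔ ∃ h : x ∈ C, φ ⟨x, h⟩ = 1 := by
  constructor
  · rintro ⟨y, hy, rfl⟩
    exact ⟨y.2, MonoidHom.mem_ker.1 hy⟩
  · rintro ⟨h, h1⟩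
    exact ⟨⟨x, h⟩, MonoidHom.mem_ker.2 h1, rfl⟩

theorem kerJ_le {J : Type u} [Group J] (C : Subgroup J) (φ : ↥C →* Equiv.Perm (Fin 5)) :
    kerJ C φ ≤ C := fun x hx => ((mem_kerJ C φ x).1 hx).1

/-- 2-local data of a group of `J2`-type -/
structure FD (J : Type u) [Group J] where
  t : J
  C : Subgroup J
  φ : ↥C →* Equiv.Perm (Fin 5)
  hcard : Nat.card J = 604800
  hC : ∀ g : J, g ∈ C ↔ g * t = t * g
  hrange : φ.range = alternatingGroup (Fin 5)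
  hker : Nat.card ↥(kerJ C φ) = 32
  htQ : t ∈ kerJ C φ
  ht1 : t ≠ 1
  hZ : ∀ q ∈ kerJ C φ, (∀ q' ∈ kerJ C φ, q * q' = q' * q) → q = 1 ∨ q = t
  hCQ : Subgroup.centralizer (kerJ C φ : Set J) ≤ kerJ C φ
  hgen : kerJ C φ ≤ Subgroup.closure {x : J | x ∈ kerJ C φ ∧ ∃ d : J, x = d * t * d⁻¹}
  hwit : ∃ x ∈ kerJ C φ, ∃ d : J, d * x * d⁻¹ ∈ C ∧ d * x * d⁻¹ ∉ kerJ C φ

variable {J : Type u} [Group J]

/-- `Q = ker φ ≤ C ≤ J` -/
def FD.Q (D : FD J) : Subgroup J := kerJ D.C D.φ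

theorem FD.mem_Q (D : FD J) (x : J) : x ∈ D.Q ↔ ∃ h : x ∈ D.C, D.φ ⟨x, h⟩ = 1 :=
  mem_kerJ D.C D.φ x

theorem FD.Q_le (D : FD J) : D.Q ≤ D.C := kerJ_le D.C D.φ

theorem FD.card_Q (D : FD J) : Nat.card ↥D.Q = 32 := D.hker

/-! ### The pieces -/

/-- CARD: `|C| = 1920`. -/
def StCard : Prop := ∀ (J : Type u) [Group J] [Finite J] (D : FD J), Nat.card ↥D.C = 1920

/-- EX: some Sylow 2-subgroup of `J` lies in `C` (a Sylow 2-subgroup of `C` has order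
`128 = 2^7` and `604800 = 2^7 * 4725`). -/
def StEx : Prop := ∀ (J : Type u) [Group J] [Finite J] (D : FD J), Nat.card ↥D.C = 1920 →
  ∃ P : Sylow 2 J, (P : Subgroup J) ≤ D.C

/-- P128: a Sylow 2-subgroup of `J` has order 128. -/
def StP128 : Prop := ∀ (J : Type u) [Group J] [Finite J] (P : Sylow 2 J),
  Nat.card J = 604800 → Nat.card ↥(P : Subgroup J) = 128

/-- QP: `Q ≤ P ≤ N(Q)` (`Q` is a normal 2-subgroup of `C`, `P` a Sylow 2-subgroup of `C`). -/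
def StQP : Prop := ∀ (J : Type u) [Group J] [Finite J] (D : FD J) (P : Sylow 2 J),
  (P : Subgroup J) ≤ D.C →
    D.Q ≤ (P : Subgroup J) ∧ (P : Subgroup J) ≤ Subgroup.normalizer (D.Q : Set J)

/-- CONJ: every 2-element of `C` is `C`-conjugate into `P`. -/
def StConj : Prop := ∀ (J : Type u) [Group J] [Finite J] (D : FD J) (P : Sylow 2 J),
  (P : Subgroup J) ≤ D.C → ∀ y ∈ D.C, (∃ k : ℕ, orderOf y = 2 ^ k) →
    ∃ c ∈ D.C, c * y * c⁻¹ ∈ (P : Subgroup J)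

/-- NP: `Z(P) = {1, t}` and `N(P) ≤ C`. -/
def StNP : Prop := ∀ (J : Type u) [Group J] [Finite J] (D : FD J) (P : Sylow 2 J),
  (P : Subgroup J) ≤ D.C → D.Q ≤ (P : Subgroup J) →
    (∀ z ∈ (P : Subgroup J), (∀ x ∈ (P : Subgroup J), z * x = x * z) → z = 1 ∨ z = D.t) ∧
    Subgroup.normalizer ((P : Subgroup J) : Set J) ≤ D.C

/-- A5I: `A5` is generated by its involutions. -/
def StA5I : Prop := ∀ s ∈ alternatingGroup (Fin 5),
  s ∈ Subgroup.closure {r : Equiv.Perm (Fin 5) | r ∈ alternatingGroup (Fin 5) ∧ r * r = 1}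

/-- GEN: `C` is generated by 2-elements (of `N(Q)`). -/
def StGen : Prop := StA5I → ∀ (J : Type u) [Group J] [Finite J] (D : FD J), ∀ g ∈ D.C,
  g ∈ Subgroup.closure {y : J | y ∈ Subgroup.normalizer (D.Q : Set J) ∧
    ∃ k : ℕ, orderOf y = 2 ^ k}

/-- PZ: a nontrivial normal subgroup of a finite 2-group meets the centre nontrivially. -/
def StPZ : Prop := ∀ (G : Type u) [Group G] [Finite G], IsPGroup 2 G → ∀ N : Subgroup G,
  N.Normal → N ≠ ⊥ → ∃ z ∈ N, z ≠ 1 ∧ ∀ x : G, z * x = x * z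

/-- CLQ: a nontrivial strongly closed subgroup of `P` contains `Q`. -/
def StClQ : Prop := StPZ.{u} → ∀ (J : Type u) [Group J] [Finite J] (D : FD J) (P : Sylow 2 J),
  (P : Subgroup J) ≤ D.C → D.Q ≤ (P : Subgroup J) →
  (∀ z ∈ (P : Subgroup J), (∀ x ∈ (P : Subgroup J), z * x = x * z) → z = 1 ∨ z = D.t) →
  ∀ T : Subgroup J, T ≤ (P : Subgroup J) → T ≠ ⊥ →
    (∀ x ∈ T, ∀ d : J, d * x * d⁻¹ ∈ (P : Subgroup J) → d * x * d⁻¹ ∈ T) → D.Q ≤ T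

/-- CLW: a strongly closed subgroup of `P` containing `Q` is not contained in `Q`. -/
def StClW : Prop := ∀ (J : Type u) [Group J] [Finite J] (D : FD J) (P : Sylow 2 J),
  (P : Subgroup J) ≤ D.C →
  (∀ y ∈ D.C, (∃ k : ℕ, orderOf y = 2 ^ k) → ∃ c ∈ D.C, c * y * c⁻¹ ∈ (P : Subgroup J)) →
  ∀ T : Subgroup J, D.Q ≤ T →
    (∀ x ∈ T, ∀ d : J, d * x * d⁻¹ ∈ (P : Subgroup J) → d * x * d⁻¹ ∈ T) → ∃ y ∈ T, y ∉ D.Q

/-- A5V: a nontrivial subgroup `W` of a four-group `V ≤ A5` that is invariant under `N_{A5}(V)`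
is `V`. -/
def StA5V : Prop := ∀ V W : Subgroup (Equiv.Perm (Fin 5)), V ≤ alternatingGroup (Fin 5) →
  Nat.card ↥V = 4 → W ≤ V → W ≠ ⊥ →
  (∀ n ∈ alternatingGroup (Fin 5), (∀ v ∈ V, n * v * n⁻¹ ∈ V) → ∀ w ∈ W, n * w * n⁻¹ ∈ W) →
  W = V

/-- CLV: a strongly closed subgroup `T` of `P` with `Q < T` is `P`. -/
def StClV : Prop := StA5V → ∀ (J : Type u) [Group J] [Finite J] (D : FD J) (P : Sylow 2 J),
  (P : Subgroup J) ≤ D.C → D.Q ≤ (P : Subgroup J) → Nat.card ↥(P : Subgroup J) = 128 →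
  ∀ T : Subgroup J, T ≤ (P : Subgroup J) → D.Q ≤ T → (∃ y ∈ T, y ∉ D.Q) →
    (∀ x ∈ T, ∀ d : J, d * x * d⁻¹ ∈ (P : Subgroup J) → d * x * d⁻¹ ∈ T) →
    T = (P : Subgroup J)

end Cfsg.Agent.H9.J2F
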