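import Mathlib
import Cfsg.Agent.H1.BTDefs

/-!
helper9: piece DEGA of S0997-B (helper1's team project): the arithmetic of the degrees.
-/

set_option autoImplicit false

namespace Cfsg.Agent.H9.BT

universe u

/-- an even number `≡ 1 mod p` (`p` odd), at least 2, is `p + 1` or at least `3p + 1` -/
theorem plus_cases (d p : ℕ) (hp : Odd p) (hd : Even d) (h2 : 2 ≤ d) (h : (d : ℤ) ≡ 1 [ZMOD p]) :
    d = p + 1 ∨ 3 * p + 1 ≤ d := by
  have h1 : (p : ℤ) ∣ (d : ℤ) - 1 := (Int.modEq_iff_dvd.1 h.symm)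
  obtain ⟨k, hk⟩ := h1
  have hk0 : 0 ≤ k := by
    by_contra hneg
    push Not at hneg
    have hp0 : (0 : ℤ) ≤ p := Int.natCast_nonneg p
    have : (p : ℤ) * k ≤ 0 := mul_nonpos_of_nonneg_of_nonpos hp0 hneg.le
    have hd2 : (2 : ℤ) ≤ d := by exact_mod_cast h2
    linarith
  obtain ⟨n, rfl⟩ := Int.eq_ofNat_of_zero_le hk0
  have hk' : d = p * n + 1 := by
    have : (d : ℤ) = ((p * n + 1 : ℕ) : ℤ) := by push_cast; linarith
    exact_mod_cast this
  obtain ⟨a, ha⟩ := hp
  obtain ⟨c, hc⟩ := hd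
  -- n is odd
  have hn : n % 2 = 1 := by
    by_contra hn
    have hn0 : n % 2 = 0 := by omega
    obtain ⟨t, ht⟩ : ∃ t, n = 2 * t := ⟨n / 2, by omega⟩
    rw [ht] at hk'
    have : d = 2 * (p * t) + 1 := by rw [hk']; ring
    omega
  rcases Nat.lt_or_ge n 3 with h3 | h3
  · left
    have : n = 1 := by omega
    rw [hk', this, mul_one]
  · right
    rw [hk']
    nlinarith

/-- an even number `≡ -1 mod p` (`p` odd, `p ≥ 3`), at least 2, is `p - 1` or at least `3p - 1` -/
theorem minus_cases (d p : ℕ) (hp : Odd p) (hd : Even d) (h2 : 2 ≤ d)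
    (h : (d : ℤ) ≡ -1 [ZMOD p]) : d + 1 = p ∨ 3 * p ≤ d + 1 := by
  have h1 : (p : ℤ) ∣ (d : ℤ) - (-1) := (Int.modEq_iff_dvd.1 h.symm)
  obtain ⟨k, hk⟩ := h1
  have hk0 : 0 ≤ k := by
    by_contra hneg
    push Not at hneg
    have hp0 : (0 : ℤ) ≤ p := Int.natCast_nonneg p
    have : (p : ℤ) * k ≤ 0 := mul_nonpos_of_nonneg_of_nonpos hp0 hneg.le
    have hd2 : (2 : ℤ) ≤ d := by exact_mod_cast h2
    linarith
  obtain ⟨n, rfl⟩ := Int.eq_ofNat_of_zero_le hk0
  have hk' : d + 1 = p * n := by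
    have : ((d + 1 : ℕ) : ℤ) = ((p * n : ℕ) : ℤ) := by push_cast; linarith
    exact_mod_cast this
  obtain ⟨a, ha⟩ := hp
  obtain ⟨c, hc⟩ := hd
  have hn : n % 2 = 1 := by
    by_contra hn
    have hn0 : n % 2 = 0 := by omega
    obtain ⟨t, ht⟩ : ∃ t, n = 2 * t := ⟨n / 2, by omega⟩
    rw [ht] at hk'
    have : d + 1 = 2 * (p * t) := by rw [hk']; ring
    omega
  rcases Nat.lt_or_ge n 3 with h3 | h3
  · left
    have : n = 1 := by omega
    rw [hk', this, mul_one]
  · right
    rw [hk']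
    nlinarith

theorem degA : Cfsg.Agent.H1.BT.StDegA.{u} := by
  intro ι Sp Sm D p e hp he4 hee hcard hSp hSm hsum hle hne
  classical
  obtain ⟨k, hk⟩ := hee
  have hpodd : Odd p := ⟨e, by omega⟩
  -- lower bounds
  have hSp' : ∀ i ∈ Sp, D i = p + 1 ∨ 3 * p + 1 ≤ D i := fun i hi =>
    plus_cases (D i) p hpodd (hSp i hi).1 (hSp i hi).2.1 (hSp i hi).2.2
  have hSm' : ∀ i ∈ Sm, D i + 1 = p ∨ 3 * p ≤ D i + 1 := fun i hi =>
    minus_cases (D i) p hpodd (hSm i hi).1 (hSm i hi).2.1 (hSm i hi).2.2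
  have hAlow : Sp.card * (p + 1) ≤ ∑ i ∈ Sp, D i := by
    have := Finset.card_nsmul_le_sum Sp D (p + 1) (fun i hi => by
      rcases hSp' i hi with h | h <;> omega)
    simpa [smul_eq_mul] using this
  have hBlow : Sm.card * (p - 1) ≤ ∑ i ∈ Sm, D i := by
    have := Finset.card_nsmul_le_sum Sm D (p - 1) (fun i hi => by
      rcases hSm' i hi with h | h <;> omega)
    simpa [smul_eq_mul] using this
  -- parity of B
  have hBeven : Even (∑ i ∈ Sm, D i) := Finset.even_sum _ (fun i hi => (hSm i hi).1)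
  obtain ⟨B2, hB2⟩ := hBeven
  -- the bound B ≤ (e+1)^2 - 3
  have hB3 : ∑ i ∈ Sm, D i + 3 ≤ (e + 1) ^ 2 := by
    have h1 : (e + 1) ^ 2 = 2 * (2 * k * k + 2 * k) + 1 := by rw [hk]; ring
    omega
  -- cardinalities
  have hb : 2 * Sm.card ≤ e := by
    by_contra hcon
    push Not at hcon
    have h1 : e + 2 ≤ 2 * Sm.card := by omega
    have h2 : Sm.card * (p - 1) = Sm.card * (2 * e) := by
      congr 1
      omega
    have h3 : (e + 2) * e ≤ Sm.card * (2 * e) := by nlinarith
    have h4 : (e + 1) ^ 2 = (e + 2) * e + 1 := by ring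
    omega
  have ha : 2 * Sp.card + 2 ≤ e := by
    by_contra hcon
    push Not at hcon
    have h1 : e ≤ 2 * Sp.card := by omega
    have h2 : e * (e + 1) ≤ Sp.card * (p + 1) := by
      have : Sp.card * (p + 1) = Sp.card * (2 * e + 2) := by
        congr 1
        omega
      rw [this]
      nlinarith
    have h4 : (e + 1) ^ 2 = e * (e + 1) + e + 1 := by ring
    omega
  have hb2 : 2 * Sm.card = e := by omega
  have ha2 : 2 * Sp.card + 2 = e := by omega
  -- all minus degrees are p - 1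
  have hm : ∀ i ∈ Sm, D i = p - 1 := by
    intro i hi
    rcases hSm' i hi with h | h
    · omega
    · exfalso
      have h1 := Finset.add_sum_erase Sm D hi
      have h2 : (Sm.erase i).card * (p - 1) ≤ ∑ j ∈ Sm.erase i, D j := by
        have := Finset.card_nsmul_le_sum (Sm.erase i) D (p - 1) (fun j hj => by
          rcases hSm' j (Finset.mem_of_mem_erase hj) with h | h <;> omega)
        simpa [smul_eq_mul] using this
      rw [Finset.card_erase_of_mem hi] at h2
      have h3 : (Sm.card - 1) * (p - 1) = (k - 1) * (2 * e) := by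
        congr 1 <;> omega
      have h5 : (e + 1) ^ 2 = k * (2 * e) + 2 * e + 1 := by rw [hk]; ring
      have h6 : k * (2 * e) = (k - 1) * (2 * e) + 2 * e := by
        have : k = (k - 1) + 1 := by omega
        nth_rewrite 1 [this]
        ring
      omega
  have hBval : ∑ i ∈ Sm, D i = Sm.card * (p - 1) := by
    rw [Finset.sum_congr rfl hm, Finset.sum_const, smul_eq_mul]
  have hAval : ∑ i ∈ Sp, D i = Sp.card * (p + 1) := by
    have h1 : Sm.card * (p - 1) = k * (2 * e) := by
      congr 1 <;> omega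
    have h2 : Sp.card * (p + 1) = (k - 1) * (2 * e + 2) := by
      congr 1 <;> omega
    have h3 : k * (2 * e) = (k - 1) * (2 * e + 2) + e + 2 := by
      have : k = (k - 1) + 1 := by omega
      nth_rewrite 1 [this]
      have he' : e = 2 * (k - 1) + 2 := by omega
      nlinarith
    omega
  refine ⟨hm, ?_, hb2, ha2⟩
  intro i hi
  rcases hSp' i hi with h | h
  · exact h
  · exfalso
    have h1 := Finset.add_sum_erase Sp D hi
    have h2 : (Sp.erase i).card * (p + 1) ≤ ∑ j ∈ Sp.erase i, D j := by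
      have := Finset.card_nsmul_le_sum (Sp.erase i) D (p + 1) (fun j hj => by
        rcases hSp' j (Finset.mem_of_mem_erase hj) with h | h <;> omega)
      simpa [smul_eq_mul] using this
    rw [Finset.card_erase_of_mem hi] at h2
    have h3 : Sp.card * (p + 1) = (Sp.card - 1) * (p + 1) + (p + 1) := by
      have hpos : 1 ≤ Sp.card := Finset.card_pos.2 ⟨i, hi⟩
      have : Sp.card = (Sp.card - 1) + 1 := by omega
      nth_rewrite 1 [this]
      ring
    omega

example : Cfsg.Agent.H1.BT.StDegA.{u} := degA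

end Cfsg.Agent.H9.BT
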