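import Mathlib
import Cfsg.Agent.H9.J2FDefs

/-!
helper9: the pieces CARD, P128, NP of S5321.
-/

set_option autoImplicit false

namespace Cfsg.Agent.H9.J2F

universe u

theorem card_C : StCard.{u} := by
  intro J _ _ D
  have h1 : Nat.card ↥D.C = Nat.card (↥D.C ⧸ D.φ.ker) * Nat.card ↥D.φ.ker :=
    Subgroup.card_eq_card_quotient_mul_card_subgroup D.φ.ker
  have h2 : Nat.card (↥D.C ⧸ D.φ.ker) = Nat.card ↥D.φ.range :=
    Nat.card_congr (QuotientGroup.quotientKerEquivRange D.φ).toEquiv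
  have h3 : Nat.card ↥D.φ.ker = 32 := by
    have h := D.hker
    unfold kerJ at h
    rwa [Subgroup.card_map_of_injective (Subgroup.subtype_injective _)] at h
  have h4 : Nat.card ↥D.φ.range = 60 := by
    rw [D.hrange, nat_card_alternatingGroup]
    simp [Nat.factorial]
  rw [h1, h2, h3, h4]

theorem fact_604800 : (604800 : ℕ).factorization 2 = 7 := by
  have h : (604800 : ℕ) = 2 ^ 7 * 4725 := by norm_num
  rw [h, Nat.factorization_mul (by norm_num) (by norm_num), Nat.factorization_pow]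
  have h2 : (2 : ℕ).factorization 2 = 1 := Nat.Prime.factorization_self Nat.prime_two
  have h3 : (4725 : ℕ).factorization 2 = 0 :=
    Nat.factorization_eq_zero_of_not_dvd (by norm_num)
  simp [h2, h3]

theorem p128 : StP128.{u} := by
  intro J _ _ P hJ
  have : Fact (Nat.Prime 2) := ⟨Nat.prime_two⟩
  rw [Sylow.card_eq_multiplicity, hJ, fact_604800]
  norm_num

theorem np : StNP.{u} := by
  intro J _ _ D P hPC hQP
  have hZ : ∀ z ∈ (P : Subgroup J), (∀ x ∈ (P : Subgroup J), z * x = x * z) → z = 1 ∨ z = D.t := by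
    intro z _ hz
    have hzQ : z ∈ D.Q := by
      apply D.hCQ
      rw [Subgroup.mem_centralizer_iff]
      intro q hq
      exact (hz q (hQP hq)).symm
    exact D.hZ z hzQ (fun q' hq' => hz q' (hQP hq'))
  refine ⟨hZ, ?_⟩
  intro g hg
  rw [Subgroup.mem_normalizer_iff] at hg
  have htP : D.t ∈ (P : Subgroup J) := hQP D.htQ
  have h1 : g * D.t * g⁻¹ ∈ (P : Subgroup J) := (hg D.t).1 htP
  have h2 : ∀ x ∈ (P : Subgroup J), g * D.t * g⁻¹ * x = x * (g * D.t * g⁻¹) := by
    intro x hx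
    have hx' : g⁻¹ * x * g ∈ (P : Subgroup J) := by
      have := (hg (g⁻¹ * x * g)).2
      apply this
      have e : g * (g⁻¹ * x * g) * g⁻¹ = x := by group
      rw [e]
      exact hx
    have hc : g⁻¹ * x * g * D.t = D.t * (g⁻¹ * x * g) := (D.hC _).1 (hPC hx')
    calc g * D.t * g⁻¹ * x = g * (D.t * (g⁻¹ * x * g)) * g⁻¹ := by group
      _ = g * (g⁻¹ * x * g * D.t) * g⁻¹ := by rw [hc]
      _ = x * (g * D.t * g⁻¹) := by group
  rcases hZ _ h1 h2 with h | h
  · exfalso
    apply D.ht1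
    calc D.t = g⁻¹ * (g * D.t * g⁻¹) * g := by group
      _ = 1 := by rw [h]; group
  · rw [D.hC]
    calc g * D.t = (g * D.t * g⁻¹) * g := by group
      _ = D.t * g := by rw [h]

end Cfsg.Agent.H9.J2F
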