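import Mathlib
import Cfsg.Agent.H9.J2FDefs

/-!
helper9: the pieces CLW, PZ, A5I of S5321.
(`pz` follows helper67's `exists_ne_one_mem_center_of_normal`.)
-/

set_option autoImplicit false

namespace Cfsg.Agent.H9.J2F

universe u

theorem clW : StClW.{u} := by
  intro J _ _ D P hPC hconj T hQT hcl
  obtain ⟨x, hxQ, d, hdC, hdQ⟩ := D.hwit
  have hord : ∃ k : ℕ, orderOf (d * x * d⁻¹) = 2 ^ k := by
    have h1 : orderOf (d * x * d⁻¹) = orderOf x :=
      orderOf_injective (MulAut.conj d).toMonoidHom (MulAut.conj d).injective x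
    have h2 : orderOf x ∣ 32 := by
      have h : orderOf (⟨x, hxQ⟩ : ↥(kerJ D.C D.φ)) ∣ Nat.card ↥(kerJ D.C D.φ) :=
        orderOf_dvd_natCard _
      rw [D.hker] at h
      rwa [Subgroup.orderOf_mk] at h
    rw [h1]
    have h3 : (32 : ℕ) = 2 ^ 5 := by norm_num
    rw [h3] at h2
    obtain ⟨k, -, hk⟩ := (Nat.dvd_prime_pow Nat.prime_two).1 h2
    exact ⟨k, hk⟩
  obtain ⟨c, hcC, hcP⟩ := hconj _ hdC hord
  have e : c * (d * x * d⁻¹) * c⁻¹ = (c * d) * x * (c * d)⁻¹ := by group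
  refine ⟨c * (d * x * d⁻¹) * c⁻¹, ?_, ?_⟩
  · rw [e]
    apply hcl x (hQT hxQ)
    rw [← e]
    exact hcP
  · intro hmem
    apply hdQ
    obtain ⟨h, h1⟩ := (D.mem_Q _).1 hmem
    refine (mem_kerJ _ _ _).2 ⟨hdC, ?_⟩
    have e2 : (⟨c * (d * x * d⁻¹) * c⁻¹, h⟩ : ↥D.C) =
        ⟨c, hcC⟩ * ⟨d * x * d⁻¹, hdC⟩ * ⟨c, hcC⟩⁻¹ := rfl
    rw [e2, map_mul, map_mul, map_inv] at h1
    calc D.φ ⟨d * x * d⁻¹, hdC⟩
        = (D.φ ⟨c, hcC⟩)⁻¹ * (D.φ ⟨c, hcC⟩ * D.φ ⟨d * x * d⁻¹, hdC⟩ * (D.φ ⟨c, hcC⟩)⁻¹) *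
            D.φ ⟨c, hcC⟩ := by group
      _ = 1 := by rw [h1]; group

theorem pz : StPZ.{u} := by
  intro G _ _ hS N hNn hN
  have : Fact (Nat.Prime 2) := ⟨Nat.prime_two⟩
  have hS' : IsPGroup 2 (ConjAct G) := hS
  have hNp : IsPGroup 2 N := hS.to_subgroup N
  have hdvd : 2 ∣ Nat.card N := by
    rcases hNp.card_eq_or_dvd with h | h
    · exfalso
      apply hN
      exact (Subgroup.card_eq_one).1 h
    · exact h
  have h1 : (1 : N) ∈ MulAction.fixedPoints (ConjAct G) N := by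
    intro g
    exact smul_one g
  obtain ⟨b, hb, hb1⟩ := hS'.exists_fixed_point_of_prime_dvd_card_of_fixed_point N hdvd h1
  refine ⟨(b : G), b.2, ?_, ?_⟩
  · intro h
    apply hb1
    exact (Subtype.ext h).symm
  · intro g
    have := hb (ConjAct.toConjAct g)
    have h2 := congrArg (fun x : N => (x : G)) this
    simp only [ConjAct.Subgroup.val_conj_smul, ConjAct.toConjAct_smul] at h2
    calc (b : G) * g = (g * (b : G) * g⁻¹) * g := by rw [h2]
      _ = g * b := by group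

theorem a5I : StA5I := by
  intro s hs
  have hKle : Subgroup.closure {r : Equiv.Perm (Fin 5) | r ∈ alternatingGroup (Fin 5) ∧ r * r = 1}
      ≤ alternatingGroup (Fin 5) := (Subgroup.closure_le _).2 (fun r hr => hr.1)
  have hconj : ∀ g : Equiv.Perm (Fin 5), ∀ x ∈
      Subgroup.closure {r : Equiv.Perm (Fin 5) | r ∈ alternatingGroup (Fin 5) ∧ r * r = 1},
      g * x * g⁻¹ ∈
        Subgroup.closure {r : Equiv.Perm (Fin 5) | r ∈ alternatingGroup (Fin 5) ∧ r * r = 1} := by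
    intro g x hx
    have hle : Subgroup.closure {r : Equiv.Perm (Fin 5) | r ∈ alternatingGroup (Fin 5) ∧ r * r = 1}
        ≤ (Subgroup.closure
          {r : Equiv.Perm (Fin 5) | r ∈ alternatingGroup (Fin 5) ∧ r * r = 1}).comap
            (MulAut.conj g).toMonoidHom := by
      refine (Subgroup.closure_le _).2 ?_
      rintro r ⟨hr1, hr2⟩
      show g * r * g⁻¹ ∈
        Subgroup.closure {r : Equiv.Perm (Fin 5) | r ∈ alternatingGroup (Fin 5) ∧ r * r = 1}
      apply Subgroup.subset_closure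
      refine ⟨?_, ?_⟩
      · exact Subgroup.Normal.conj_mem inferInstance r hr1 g
      · calc g * r * g⁻¹ * (g * r * g⁻¹) = g * (r * r) * g⁻¹ := by group
          _ = 1 := by rw [hr2]; group
    exact hle hx
  have hn : ((Subgroup.closure
      {r : Equiv.Perm (Fin 5) | r ∈ alternatingGroup (Fin 5) ∧ r * r = 1}).subgroupOf
        (alternatingGroup (Fin 5))).Normal := by
    constructor
    intro x hx g
    rw [Subgroup.mem_subgroupOf] at hx ⊢
    exact hconj g x hx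
  have : IsSimpleGroup ↥(alternatingGroup (Fin 5)) := alternatingGroup.isSimpleGroup_five
  rcases hn.eq_bot_or_eq_top with h | h
  · exfalso
    have hr0 : (Equiv.swap (0 : Fin 5) 1 * Equiv.swap 2 3) ∈ alternatingGroup (Fin 5) := by
      rw [Equiv.Perm.mem_alternatingGroup]
      decide
    have hr1 : (Equiv.swap (0 : Fin 5) 1 * Equiv.swap 2 3) *
        (Equiv.swap (0 : Fin 5) 1 * Equiv.swap 2 3) = 1 := by decide
    have hmem : (⟨Equiv.swap (0 : Fin 5) 1 * Equiv.swap 2 3, hr0⟩ : ↥(alternatingGroup (Fin 5))) ∈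
        (Subgroup.closure
          {r : Equiv.Perm (Fin 5) | r ∈ alternatingGroup (Fin 5) ∧ r * r = 1}).subgroupOf
            (alternatingGroup (Fin 5)) := by
      rw [Subgroup.mem_subgroupOf]
      exact Subgroup.subset_closure ⟨hr0, hr1⟩
    rw [h, Subgroup.mem_bot] at hmem
    have h2 : (Equiv.swap (0 : Fin 5) 1 * Equiv.swap 2 3) = 1 := congrArg Subtype.val hmem
    revert h2
    decide
  · have hmem : (⟨s, hs⟩ : ↥(alternatingGroup (Fin 5))) ∈
        (Subgroup.closure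
          {r : Equiv.Perm (Fin 5) | r ∈ alternatingGroup (Fin 5) ∧ r * r = 1}).subgroupOf
            (alternatingGroup (Fin 5)) := by
      rw [h]
      exact Subgroup.mem_top _
    exact Subgroup.mem_subgroupOf.1 hmem

end Cfsg.Agent.H9.J2F
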