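import Mathlib
import Cfsg.Agent.H9.J2FDefs
import Cfsg.Agent.H88.FamEquiv

/-!
helper9: assembly of the pieces of S5321: a group of `J2`-type (`FD J`) has a simple 2-fusion
system, via helper88's centric-family criterion with the family `{Q}`.
-/

set_option autoImplicit false

namespace Cfsg.Agent.H9.J2F

universe u v

theorem fusion_simple_of_pieces
    (hCard : StCard.{u}) (hEx : StEx.{u}) (hP128 : StP128.{u}) (hQP : StQP.{u})
    (hConj : StConj.{u}) (hNP : StNP.{u}) (hA5I : StA5I) (hGen : StGen.{u}) (hPZ : StPZ.{u})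
    (hClQ : StClQ.{u}) (hClW : StClW.{u}) (hA5V : StA5V) (hClV : StClV.{u})
    {J : Type u} [Group J] [Finite J] (D : FD J) {G : Type v} [Group G] [Finite G] (e : J ≃* G)
    (S : Sylow 2 G) : (Cfsg.groupFusionSystem (S : Subgroup G)).IsSimple 2 := by
  have : Fact (Nat.Prime 2) := ⟨Nat.prime_two⟩
  have hc := hCard J D
  obtain ⟨P, hPC⟩ := hEx J D hc
  obtain ⟨hQP1, hQP2⟩ := hQP J D P hPC
  have h128 := hP128 J P D.hcard
  have hconj := hConj J D P hPC
  obtain ⟨hZP, hNPC⟩ := hNP J D P hPC hQP1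
  refine Cfsg.Agent.H88.simple_of_centric_family_equiv e 2 P ?_ ?_ {D.Q} ?_ ?_ S
  · intro h
    rw [h, Subgroup.card_bot] at h128
    norm_num at h128
  · intro T hT hT1 hcl
    have hQT := hClQ hPZ J D P hPC hQP1 hZP T hT hT1 hcl
    have hy := hClW J D P hPC hconj T hQT hcl
    exact hClV hA5V J D P hPC hQP1 h128 T hT hQT hy hcl
  · intro E hE
    rw [Set.mem_singleton_iff] at hE
    subst hE
    exact ⟨hQP1, hQP2, D.hCQ⟩
  · intro g hg
    have hgC := hNPC hg
    apply Subgroup.subset_closure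
    exact ⟨hg, D.Q, Set.mem_singleton _, hGen hA5I J D g hgC⟩

end Cfsg.Agent.H9.J2F
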