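import Mathlib
import Cfsg.Agent.H9.PGDefs

/-!
# S3662 (helper9): assembly — `(K4⁶)^N ⋊ L` has the prime graph of `L = G₂(4)`
-/

set_option autoImplicit false

namespace Cfsg.Agent.H9.PG

open Cfsg Cfsg.Lie
open scoped Matrix

universe u

/-- the module `(K4⁶)^k` of a group `L` acting through `ρ : L →* GL₆(K4)` -/
def Mod {L : Type u} [Group L] (_ρ : L →* GL (Fin 6) K4) (k : ℕ) : Type := Fin k → Fin 6 → K4

instance instAddCommGroupMod {L : Type u} [Group L] (ρ : L →* GL (Fin 6) K4) (k : ℕ) :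
    AddCommGroup (Mod ρ k) := inferInstanceAs (AddCommGroup (Fin k → Fin 6 → K4))

instance instFiniteMod {L : Type u} [Group L] (ρ : L →* GL (Fin 6) K4) (k : ℕ) :
    Finite (Mod ρ k) := inferInstanceAs (Finite (Fin k → Fin 6 → K4))

instance instDMAMod {L : Type u} [Group L] (ρ : L →* GL (Fin 6) K4) (k : ℕ) :
    DistribMulAction L (Mod ρ k) where
  smul y a := fun i => ((ρ y : GL (Fin 6) K4) : Matrix (Fin 6) (Fin 6) K4) *ᵥ a i
  one_smul a := by
    funext i
    show ((ρ 1 : GL (Fin 6) K4) : Matrix (Fin 6) (Fin 6) K4) *ᵥ a i = a i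
    rw [map_one, Units.val_one, Matrix.one_mulVec]
  mul_smul y z a := by
    funext i
    show ((ρ (y * z) : GL (Fin 6) K4) : Matrix (Fin 6) (Fin 6) K4) *ᵥ a i =
      ((ρ y : GL (Fin 6) K4) : Matrix (Fin 6) (Fin 6) K4) *ᵥ
        (((ρ z : GL (Fin 6) K4) : Matrix (Fin 6) (Fin 6) K4) *ᵥ a i)
    rw [map_mul, Units.val_mul, Matrix.mulVec_mulVec]
  smul_zero y := by
    funext i
    show ((ρ y : GL (Fin 6) K4) : Matrix (Fin 6) (Fin 6) K4) *ᵥ (0 : Fin 6 → K4) = 0
    exact Matrix.mulVec_zero _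
  smul_add y a b := by
    funext i
    show ((ρ y : GL (Fin 6) K4) : Matrix (Fin 6) (Fin 6) K4) *ᵥ (a i + b i) = _
    exact Matrix.mulVec_add _ _ _

theorem mod_smul_apply {L : Type u} [Group L] (ρ : L →* GL (Fin 6) K4) (k : ℕ) (y : L) (a : Mod ρ k)
    (i : Fin k) : (y • a) i = ((ρ y : GL (Fin 6) K4) : Matrix (Fin 6) (Fin 6) K4) *ᵥ a i := rfl

theorem k4_add_self : ∀ c : K4, c + c = 0 := by decide

theorem card_mod {L : Type u} [Group L] (ρ : L →* GL (Fin 6) K4) (k : ℕ) :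
    Nat.card (Mod ρ k) = 4096 ^ k := by
  show Nat.card (Fin k → Fin 6 → K4) = 4096 ^ k
  rw [Nat.card_fun, Nat.card_fun, Nat.card_eq_fintype_card, Nat.card_eq_fintype_card,
    Nat.card_eq_fintype_card, Fintype.card_fin, Fintype.card_fin, Cfsg.Agent.H94.HS.F4.card_eq]
  norm_num

theorem prime_dvd_order {r : ℕ} (hr : r.Prime) (h : r ∣ 251596800) :
    r = 2 ∨ r = 3 ∨ r = 5 ∨ r = 7 ∨ r = 13 := by
  have h0 : (251596800 : ℕ) = 2 ^ 12 * 3 ^ 3 * 5 ^ 2 * 7 * 13 := by norm_num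
  rw [h0] at h
  rcases (Nat.Prime.dvd_mul hr).1 h with h | h
  · rcases (Nat.Prime.dvd_mul hr).1 h with h | h
    · rcases (Nat.Prime.dvd_mul hr).1 h with h | h
      · rcases (Nat.Prime.dvd_mul hr).1 h with h | h
        · left; exact (Nat.prime_dvd_prime_iff_eq hr Nat.prime_two).1 (hr.dvd_of_dvd_pow h)
        · right; left; exact (Nat.prime_dvd_prime_iff_eq hr Nat.prime_three).1 (hr.dvd_of_dvd_pow h)
      · right; right; left; exact (Nat.prime_dvd_prime_iff_eq hr Nat.prime_five).1 (hr.dvd_of_dvd_pow h)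
    · right; right; right; left; exact (Nat.prime_dvd_prime_iff_eq hr (by norm_num)).1 h
  · right; right; right; right; exact (Nat.prime_dvd_prime_iff_eq hr (by norm_num)).1 h

/-- the assembly -/
theorem main (hSyl : StSyl.{u}) (hSemi : StSemi.{u, 0}) (hOrd : StOrd) (hFpf : StFpf)
    {F : Type u} [Field F] (e : F ≃+* K4)
    (hcard : Nat.card ↥(chevG2.group F) = 251596800)
    (ρ : ↥(chevG2.group F) →* GL (Fin 6) K4) (x : ℕ → F → ↥(chevG2.group F))
    (hinj : Function.Injective ρ) (hx : ∀ (r : ℕ) (t : F), ρ (x r t) = XG r (e t)) (N : ℕ) :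
    ∃ (H : Type) (_ : Group H) (_ : Finite H), N < Nat.card H ∧
      ((∀ p : ℕ, p.Prime → (p ∣ Nat.card ↥(chevG2.group F) ↔ p ∣ Nat.card H)) ∧
      (∀ p q : ℕ, p.Prime → q.Prime → p ≠ q →
        ((∃ g : ↥(chevG2.group F), orderOf g = p * q) ↔ (∃ g : H, orderOf g = p * q)))) := by
  have : Finite ↥(chevG2.group F) := Nat.finite_of_card_ne_zero (by rw [hcard]; norm_num)
  -- the elements of orders 6 and 10
  have hx' : ∀ (r : ℕ) (c : K4), ρ (x r (e.symm c)) = XG r c := fun r c => by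
    rw [hx, RingEquiv.apply_symm_apply]
  obtain ⟨y6, hy6⟩ : ∃ y : ↥(chevG2.group F), orderOf y = 6 := by
    refine ⟨x 11 (e.symm 1) * x 7 (e.symm 1) * x 4 (e.symm 1), ?_⟩
    rw [← orderOf_injective ρ hinj, map_mul, map_mul, hx', hx', hx']
    exact hOrd.1
  obtain ⟨y10, hy10⟩ : ∃ y : ↥(chevG2.group F), orderOf y = 10 := by
    refine ⟨x 11 (e.symm 1) * x 7 (e.symm 1) * x 4 (e.symm Cfsg.Agent.H94.HS.F4.w), ?_⟩
    rw [← orderOf_injective ρ hinj, map_mul, map_mul, hx', hx', hx']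
    exact hOrd.2
  -- elements of order 7 and 13 act freely
  have h7 : ∀ y : ↥(chevG2.group F), orderOf y = 7 → ∀ v : Fin 6 → K4,
      ((ρ y : GL (Fin 6) K4) : Matrix (Fin 6) (Fin 6) K4) *ᵥ v = v → v = 0 := by
    have hg : ρ (x 7 (e.symm Cfsg.Agent.H94.HS.F4.v) * x 1 (e.symm Cfsg.Agent.H94.HS.F4.w) *
        x 8 (e.symm Cfsg.Agent.H94.HS.F4.w)) = W7 := by
      rw [map_mul, map_mul, hx', hx', hx']; rfl
    exact hSyl _ ρ 7 (by norm_num) (by rw [hcard]; norm_num) (by rw [hcard]; norm_num) _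
      (by rw [hg]; exact hFpf.1.1) (by rw [hg]; exact hFpf.1.2)
  have h13 : ∀ y : ↥(chevG2.group F), orderOf y = 13 → ∀ v : Fin 6 → K4,
      ((ρ y : GL (Fin 6) K4) : Matrix (Fin 6) (Fin 6) K4) *ᵥ v = v → v = 0 := by
    have hg : ρ (x 6 (e.symm Cfsg.Agent.H94.HS.F4.v) * x 5 (e.symm Cfsg.Agent.H94.HS.F4.w) *
        x 2 (e.symm Cfsg.Agent.H94.HS.F4.w) * x 7 (e.symm Cfsg.Agent.H94.HS.F4.w)) = W13 := by
      rw [map_mul, map_mul, map_mul, hx', hx', hx', hx']; rfl
    exact hSyl _ ρ 13 (by norm_num) (by rw [hcard]; norm_num) (by rw [hcard]; norm_num) _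
      (by rw [hg]; exact hFpf.2.1) (by rw [hg]; exact hFpf.2.2)
  -- the split extension
  obtain ⟨H, iG, iF, hHcard, hLH, hHL⟩ := hSemi ↥(chevG2.group F) (Mod ρ N)
    (fun a => by funext i j; exact k4_add_self (a i j))
  refine ⟨H, iG, iF, ?_, ?_, ?_⟩
  · rw [hHcard, card_mod, hcard]
    calc N < 4096 ^ N := Nat.lt_pow_self (by norm_num)
      _ ≤ 4096 ^ N * 251596800 := Nat.le_mul_of_pos_right _ (by norm_num)
  · intro p hp
    rw [hHcard, card_mod, hcard]
    constructor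
    · intro h; exact Dvd.dvd.mul_left h _
    · intro h
      rcases (Nat.Prime.dvd_mul hp).1 h with h | h
      · have h2 : p ∣ 2 := by
          have : (4096 : ℕ) = 2 ^ 12 := by norm_num
          rw [this] at h
          exact hp.dvd_of_dvd_pow (hp.dvd_of_dvd_pow h)
        have : p = 2 := (Nat.prime_dvd_prime_iff_eq hp Nat.prime_two).1 h2
        rw [this]; norm_num
      · exact h
  · intro p q hp hq hpq
    constructor
    · intro h; exact hLH _ h
    · intro h
      rcases hHL p q hp hq hpq h with h | ⟨y, a, ha, hya, hcase⟩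
      · exact h
      · -- an element `y` of odd prime order fixing a nonzero vector
        obtain ⟨i, hi⟩ : ∃ i, a i ≠ 0 := by
          by_contra hcon
          push Not at hcon
          exact ha (funext hcon)
        have hfix : ((ρ y : GL (Fin 6) K4) : Matrix (Fin 6) (Fin 6) K4) *ᵥ a i = a i := by
          rw [← mod_smul_apply, hya]
        have key : ∀ r : ℕ, r.Prime → r ≠ 2 → orderOf y = r →
            ∃ g : ↥(chevG2.group F), orderOf g = 2 * r := by
          intro r hr hr2 hyr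
          have hdvd : r ∣ 251596800 := by
            rw [← hcard, ← hyr]; exact orderOf_dvd_natCard y
          rcases prime_dvd_order hr hdvd with h | h | h | h | h
          · exact absurd h hr2
          · exact ⟨y6, by rw [hy6, h]⟩
          · exact ⟨y10, by rw [hy10, h]⟩
          · exact absurd (h7 y (by rw [hyr, h]) (a i) hfix) hi
          · exact absurd (h13 y (by rw [hyr, h]) (a i) hfix) hi
        rcases hcase with ⟨hp2, hyq⟩ | ⟨hq2, hyp⟩
        · obtain ⟨g, hg⟩ := key q hq (fun h => hpq (by rw [hp2, h])) hyq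
          exact ⟨g, by rw [hg, hp2]⟩
        · obtain ⟨g, hg⟩ := key p hp (fun h => hpq (by rw [hq2, h])) hyp
          exact ⟨g, by rw [hg, hq2, mul_comm]⟩

end Cfsg.Agent.H9.PG
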