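import Mathlib
import Cfsg.Agent.H9.XPDefs
import Cfsg.Agent.H9.J2.U3Sub

/-!
# S5746 (helper9 team project XP): the icosian side, table checks

The Hall–Janko group acts faithfully on its 315 reflections `xk k`; the five reflections with
indices `gI i` generate it and act by the table `tN`; the first four generate the subgroup `H3`
(`U₃(3)`, index 100, maximal), and the stabiliser of `xk 0` is maximal of index 315.
-/

set_option autoImplicit false

namespace Cfsg.Agent.H9.XP

open Cfsg.Spor MulAction
open Cfsg.Agent.H9.J2
open Cfsg.Agent.H6.Ree3 (forceN allN allN_spec forceN_eq)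

/-- the check of the table of generator `i` on the icosian side -/
def chkT (i : ℕ) : Bool := forceN (gI i) fun g => allN 315 fun j => wOK [g] (tN i j) j (uN i j)

set_option maxRecDepth 100000 in
theorem chkT0 : chkT 0 = true := by decide +kernel
set_option maxRecDepth 100000 in
theorem chkT1 : chkT 1 = true := by decide +kernel
set_option maxRecDepth 100000 in
theorem chkT2 : chkT 2 = true := by decide +kernel
set_option maxRecDepth 100000 in
theorem chkT3 : chkT 3 = true := by decide +kernel
set_option maxRecDepth 100000 in
theorem chkT4 : chkT 4 = true := by decide +kernel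

set_option maxRecDepth 100000 in
theorem tN_lt : ∀ i : Fin 5, ∀ j : Fin 315, tN i.val j.val < 315 := by decide +kernel

/-- the five generating reflections in `J2` -/
noncomputable def fJ (i : Fin 5) : J2 := jW [gI i.val]

theorem fJ_smul (i : Fin 5) (j : Fin 315) : fJ i • xk j.val = xk (tN i.val j.val) := by
  have h : chkT i.val = true := by
    fin_cases i
    · exact chkT0
    · exact chkT1
    · exact chkT2
    · exact chkT3
    · exact chkT4
  unfold chkT at h
  rw [forceN_eq] at h
  exact jW_smul (allN_spec h j.val j.isLt)

end Cfsg.Agent.H9.XP
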