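import Mathlib
import Cfsg.Agent.H9.XPDefs
import Cfsg.Agent.H9.XPAbs
import Cfsg.Agent.H9.XPJ0
import Cfsg.Agent.H9.J2.Prim
import Cfsg.Agent.H9.J2.U3Perm
import Cfsg.Agent.H9.J2.U3Orb

/-!
# S5746 (helper9 team project XP): the icosian side

The Hall–Janko group acts faithfully on its 315 reflections `xk k`; the five reflections with
indices `gI i` generate it and act by the table `tN`; the first four generate the subgroup `H3`
(`U₃(3)`, index 100, maximal), and the stabiliser of `xk 0` is maximal of index 315.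
-/

set_option autoImplicit false

namespace Cfsg.Agent.H9.XP

open Cfsg.Spor MulAction
open Cfsg.Agent.H9.J2

/-- the 315 reflections, indexed -/
noncomputable def eqv : Fin 315 ≃ XR where
  toFun k := xk k.val
  invFun f := ⟨idxOf f, idxOf_lt f⟩
  left_inv k := Fin.ext (idxOf_xk k.isLt)
  right_inv f := xk_idxOf f

/-- the action on the indices -/
noncomputable def phiJ : J2 →* Equiv.Perm (Fin 315) :=
  (eqv.symm.permCongrHom : Equiv.Perm XR ≃* Equiv.Perm (Fin 315)).toMonoidHom.comp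
    (MulAction.toPermHom J2 XR)

theorem phiJ_apply (g : J2) (k : Fin 315) : xk (phiJ g k).val = g • xk k.val := by
  show eqv (eqv.symm (g • eqv k)) = g • xk k.val
  rw [Equiv.apply_symm_apply]
  rfl

theorem phiJ_inj : Function.Injective phiJ := by
  have := j2_faithful
  intro a b h
  refine MulAction.toPerm_injective (α := J2) (β := XR) ?_
  exact (eqv.symm.permCongrHom : Equiv.Perm XR ≃* Equiv.Perm (Fin 315)).injective h

theorem phiJ_fJ (i : Fin 5) (j : Fin 315) : (phiJ (fJ i) j).val = tN i.val j.val := by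
  have h := phiJ_apply (fJ i) j
  rw [fJ_smul] at h
  exact xk_inj (Fin.isLt _) (tN_lt i j) h

theorem eN_sd : ∀ s : Fin 4, eN (sd s.val) = gI s.val := by decide

theorem range_gJ : Set.range gJ = fJ '' {i : Fin 5 | i.val < 4} := by
  ext x
  constructor
  · rintro ⟨s, rfl⟩
    by_cases hs : s < 4
    · refine ⟨⟨s, by omega⟩, hs, ?_⟩
      unfold fJ gJ
      rw [eN_sd ⟨s, hs⟩]
    · refine ⟨⟨0, by norm_num⟩, by norm_num, ?_⟩
      unfold fJ gJ
      rw [sd_ge (by omega : 4 ≤ s)]
      exact congrArg (fun n => jW [n]) (eN_sd ⟨0, by norm_num⟩).symm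
  · rintro ⟨i, hi, rfl⟩
    refine ⟨i.val, ?_⟩
    unfold fJ gJ
    rw [eN_sd ⟨i.val, hi⟩]

theorem H3_eq : H3 = Subgroup.closure (fJ '' {i : Fin 5 | i.val < 4}) := by
  unfold H3
  rw [range_gJ]

theorem H3_index : H3.index = 100 := by
  classical
  have := j2_finite
  have hle : Nat.card ↥H3 ≤ 6048 := card_H3_le
  have hR : Nat.card ↥Cfsg.Agent.H6.G22.rho.range = 6048 := by
    rw [← Nat.card_congr (MonoidHom.ofInjective Cfsg.Agent.H6.G22.rho_injective).toEquiv]
    exact Cfsg.Agent.H6.G22.su_card Cfsg.Agent.H6.L29.card_gf9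
  have hsub : Cfsg.Agent.H6.G22.rho.range ≤ phi3.range := rho_range_le.trans tS_le_range
  have h1 : 6048 ≤ Nat.card ↥phi3.range := by
    rw [← hR]
    exact Subgroup.card_le_of_le hsub
  have hk := Subgroup.card_mul_index phi3.ker
  rw [Subgroup.index_ker] at hk
  have hpos : 0 < Nat.card ↥phi3.ker := Nat.card_pos
  have hker : Nat.card ↥phi3.ker = 1 := by nlinarith
  have hrange : Nat.card ↥phi3.range = 6048 := by nlinarith
  have hcard : Nat.card ↥H3 = 6048 := by
    rw [hker, hrange] at hk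
    omega
  have h2 := Subgroup.card_mul_index H3
  rw [hcard, card_J2] at h2
  omega

theorem H3_coatom (hR3 : StR3) : IsCoatom H3 :=
  haveI := j2_finite
  hR3 J2 H3 H3_index (orbits_36_63 H3_index)

theorem tN40 : tN 4 0 ∉ eL := by decide +kernel

theorem fJ4_not_mem : fJ ⟨4, by norm_num⟩ ∉ H3 := by
  intro h
  have h1 := (H3_mem_iff h (xk 0)).2 ((mem_Sx (by norm_num)).2 (by decide))
  have h2 := fJ_smul ⟨4, by norm_num⟩ ⟨0, by norm_num⟩
  rw [h2] at h1
  exact tN40 ((mem_Sx (tN_lt ⟨4, by norm_num⟩ ⟨0, by norm_num⟩)).1 h1)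

theorem closure_fJ (hR3 : StR3) : Subgroup.closure (Set.range fJ) = ⊤ := by
  refine (H3_coatom hR3).2 _ (lt_of_le_of_ne ?_ ?_)
  · rw [H3_eq]
    exact Subgroup.closure_mono (Set.image_subset_range _ _)
  · intro h
    exact fJ4_not_mem (h ▸ Subgroup.subset_closure ⟨_, rfl⟩)

theorem stab_eq : (stabilizer (Equiv.Perm (Fin 315)) (0 : Fin 315)).comap phiJ = stabilizer J2 (xk 0) := by
  ext g
  rw [Subgroup.mem_comap, mem_stabilizer_iff, mem_stabilizer_iff]
  have h := phiJ_apply g 0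
  have h0 : ((0 : Fin 315) : ℕ) = 0 := rfl
  constructor
  · intro h1
    have h2 : phiJ g 0 = 0 := h1
    rw [h2, h0] at h
    exact h.symm
  · intro h1
    rw [h0, h1] at h
    show phiJ g 0 = 0
    exact Fin.ext (xk_inj (Fin.isLt _) (by norm_num) h)

theorem card_XR : Nat.card XR = 315 := by
  rw [← Nat.card_congr eqv]
  simp

/-- the icosian side, packaged -/
theorem jside (hR3 : StR3) : ∃ (φ : J2 →* Equiv.Perm (Fin 315)) (f : Fin 5 → J2),
    Function.Injective φ ∧ Subgroup.closure (Set.range f) = ⊤ ∧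
    (∀ (i : Fin 5) (j : Fin 315), ((φ (f i)) j).val = tN i.val j.val) ∧
    IsCoatom (Subgroup.closure (f '' {i : Fin 5 | i.val < 4})) ∧
    (Subgroup.closure (f '' {i : Fin 5 | i.val < 4})).index = 100 ∧
    IsCoatom ((stabilizer (Equiv.Perm (Fin 315)) (0 : Fin 315)).comap φ) ∧
    ((stabilizer (Equiv.Perm (Fin 315)) (0 : Fin 315)).comap φ).index = 315 := by
  refine ⟨phiJ, fJ, phiJ_inj, closure_fJ hR3, phiJ_fJ, ?_, ?_, ?_, ?_⟩
  · rw [← H3_eq]; exact H3_coatom hR3
  · rw [← H3_eq]; exact H3_index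
  · rw [stab_eq]; exact j2_coatom
  · rw [stab_eq, MulAction.index_stabilizer_of_transitive, card_XR]

end Cfsg.Agent.H9.XP
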