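import Mathlib
import Cfsg.Agent.H9.XPDefs
import Cfsg.Agent.H9.XPAbs

/-!
# S5746 (helper9 team project XP): the assembly

`core`: the group-theoretic skeleton (a subgroup `H = ⟨g i⟩` acting faithfully on 315 points like the
abstract group `J`, two elements `a`, `b` with `U ≤ H ∩ H^a`, `C ≤ H ∩ H^b`, `|G| = 416 |H|`).
`main`: the same for a group `G` with a faithful representation in `GL₆(K4)` containing the root
elements, from the matrix-side pieces.
-/

set_option autoImplicit false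

universe u

namespace Cfsg.Agent.H9.XP

open Cfsg.Agent.H9.PG
open Cfsg.Agent.H94.HS (F4)
open scoped Matrix

/-- the group-theoretic skeleton -/
theorem core (hDC : StDC.{u}) (hIso : StIso.{u})
    (J : Type) [Group J]
    (G : Type u) [Group G] [Finite G] (g : Fin 5 → G) (a b : G) (H : Subgroup G)
    (hgH : ∀ i, g i ∈ H) (hHgen : Subgroup.closure (Set.range g) = H)
    (φ : J →* Equiv.Perm (Fin 315)) (f : Fin 5 → J)
    (ψ : ↥H →* Equiv.Perm (Fin 315))
    (hφ : Function.Injective φ) (hψ : Function.Injective ψ)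
    (hf : Subgroup.closure (Set.range f) = ⊤)
    (hcompat : ∀ i, φ (f i) = ψ ⟨g i, hgH i⟩)
    (hU1 : IsCoatom (Subgroup.closure (f '' {i : Fin 5 | i.val < 4})))
    (hU2 : (Subgroup.closure (f '' {i : Fin 5 | i.val < 4})).index = 100)
    (hC1 : IsCoatom ((MulAction.stabilizer (Equiv.Perm (Fin 315)) (0 : Fin 315)).comap φ))
    (hC2 : ((MulAction.stabilizer (Equiv.Perm (Fin 315)) (0 : Fin 315)).comap φ).index = 315)
    (ha : ∀ i : Fin 5, i.val < 4 →
      a⁻¹ * g i * a ∈ Subgroup.closure (g '' {i : Fin 5 | i.val < 4}))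
    (hb : ∀ c : ↥H, ψ c 0 = 0 → (c : G) * b = b * c)
    (hna : ¬ H ≤ H.map (MulAut.conj a).toMonoidHom)
    (hnb : ¬ H ≤ H.map (MulAut.conj b).toMonoidHom)
    (hcard : Nat.card G = 416 * Nat.card J) :
    ∃ H : Subgroup G, IsCoatom H ∧ Nonempty (↥H ≃* J) ∧
      ∀ y, y ∉ H → IsCoatom ((H ⊓ H.map (MulAut.conj y).toMonoidHom).subgroupOf H) := by
  classical
  set m : Fin 5 → ↥H := fun i => ⟨g i, hgH i⟩ with hm
  have hmgen : Subgroup.closure (Set.range m) = ⊤ := by
    apply Subgroup.map_injective H.subtype_injective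
    rw [MonoidHom.map_closure, ← MonoidHom.range_eq_map, Subgroup.range_subtype, ← Set.range_comp]
    exact hHgen
  obtain ⟨Θ, hΘ1, hΘ2⟩ := hIso J ↥H 315 φ ψ (Fin 5) f m hφ hψ hf hmgen hcompat
  have hHcard : Nat.card ↥H = Nat.card J := (Nat.card_congr Θ.toEquiv).symm
  set S : Set (Fin 5) := {i : Fin 5 | i.val < 4} with hS
  set U : Subgroup G := Subgroup.closure (g '' S) with hU
  set St : Subgroup (Equiv.Perm (Fin 315)) :=
    MulAction.stabilizer (Equiv.Perm (Fin 315)) (0 : Fin 315) with hSt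
  set C : Subgroup G := (St.comap ψ).map H.subtype with hC
  have hUH : U ≤ H := by
    rw [← hHgen]
    exact Subgroup.closure_mono (Set.image_subset_range _ _)
  have hUsub : U.subgroupOf H = (Subgroup.closure (f '' S)).map Θ.toMonoidHom := by
    have h1 : U = (Subgroup.closure (m '' S)).map H.subtype := by
      rw [MonoidHom.map_closure, Set.image_image]
      rfl
    have h2 : (Subgroup.closure (f '' S)).map Θ.toMonoidHom = Subgroup.closure (m '' S) := by
      rw [MonoidHom.map_closure, Set.image_image]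
      congr 1
      apply Set.image_congr
      intro i _
      exact hΘ1 i
    rw [h2, h1]
    exact Subgroup.comap_map_eq_self_of_injective H.subtype_injective _
  have hUco : IsCoatom (U.subgroupOf H) := by
    rw [hUsub]
    exact (OrderIso.isCoatom_iff Θ.mapSubgroup _).2 hU1
  have hUidx : (U.subgroupOf H).index = 100 := by
    rw [hUsub]
    exact (Subgroup.index_map_equiv (Subgroup.closure (f '' S)) Θ).trans hU2
  have hCH : C ≤ H := Subgroup.map_subtype_le _
  have hCsub : C.subgroupOf H = (St.comap φ).map Θ.toMonoidHom := by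
    have h1 : C.subgroupOf H = St.comap ψ :=
      Subgroup.comap_map_eq_self_of_injective H.subtype_injective _
    rw [h1]
    ext h
    rw [Subgroup.mem_map_equiv, Subgroup.mem_comap, Subgroup.mem_comap, ← hΘ2,
      MulEquiv.apply_symm_apply]
  have hCco : IsCoatom (C.subgroupOf H) := by
    rw [hCsub]
    exact (OrderIso.isCoatom_iff Θ.mapSubgroup _).2 hC1
  have hCidx : (C.subgroupOf H).index = 315 := by
    rw [hCsub]
    exact (Subgroup.index_map_equiv (St.comap φ) Θ).trans hC2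
  have hUa : U ≤ H.map (MulAut.conj a).toMonoidHom := by
    have h1 : U ≤ U.comap (MulAut.conj a⁻¹).toMonoidHom := by
      have h0 : g '' S ⊆ (U.comap (MulAut.conj a⁻¹).toMonoidHom : Set G) := by
        rintro _ ⟨i, hi, rfl⟩
        show MulAut.conj a⁻¹ (g i) ∈ U
        rw [MulAut.conj_apply, inv_inv]
        exact ha i hi
      exact (Subgroup.closure_le _).2 h0
    intro u hu
    refine ⟨a⁻¹ * u * a, hUH ?_, ?_⟩
    · have h2 := h1 hu
      have h3 : MulAut.conj a⁻¹ u ∈ U := h2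
      rw [MulAut.conj_apply, inv_inv] at h3
      exact h3
    · show MulAut.conj a (a⁻¹ * u * a) = u
      rw [MulAut.conj_apply]
      group
  have hCb : C ≤ H.map (MulAut.conj b).toMonoidHom := by
    rintro _ ⟨c, hc, rfl⟩
    have hc' : ψ c 0 = 0 := hc
    refine ⟨(c : G), c.2, ?_⟩
    show MulAut.conj b (c : G) = (c : G)
    rw [MulAut.conj_apply, ← hb c hc', mul_inv_cancel_right]
  obtain ⟨h1, h2⟩ := hDC G H U C a b hUH hUa hUco hUidx hCH hCb hCco hCidx hna hnb
    (by rw [hcard, hHcard])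
  exact ⟨H, h1, ⟨Θ.symm⟩, h2⟩

/-- the matrices preserving the alternating form -/
def spG : Subgroup (GL (Fin 6) K4) where
  carrier := {A | ((A : GL (Fin 6) K4) : Matrix (Fin 6) (Fin 6) K4)ᵀ * Jm *
    ((A : GL (Fin 6) K4) : Matrix (Fin 6) (Fin 6) K4) = Jm}
  one_mem' := by
    show ((1 : GL (Fin 6) K4) : Matrix (Fin 6) (Fin 6) K4)ᵀ * Jm *
      ((1 : GL (Fin 6) K4) : Matrix (Fin 6) (Fin 6) K4) = Jm
    rw [Units.val_one, Matrix.transpose_one, Matrix.one_mul, Matrix.mul_one]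
  mul_mem' := by
    intro A B hA hB
    have hA' : (A : Matrix (Fin 6) (Fin 6) K4)ᵀ * Jm * (A : Matrix (Fin 6) (Fin 6) K4) = Jm := hA
    have hB' : (B : Matrix (Fin 6) (Fin 6) K4)ᵀ * Jm * (B : Matrix (Fin 6) (Fin 6) K4) = Jm := hB
    show ((A * B : GL (Fin 6) K4) : Matrix (Fin 6) (Fin 6) K4)ᵀ * Jm *
      ((A * B : GL (Fin 6) K4) : Matrix (Fin 6) (Fin 6) K4) = Jm
    rw [Units.val_mul, Matrix.transpose_mul]
    calc (B : Matrix (Fin 6) (Fin 6) K4)ᵀ * (A : Matrix (Fin 6) (Fin 6) K4)ᵀ * Jm *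
          ((A : Matrix (Fin 6) (Fin 6) K4) * (B : Matrix (Fin 6) (Fin 6) K4))
        = (B : Matrix (Fin 6) (Fin 6) K4)ᵀ * ((A : Matrix (Fin 6) (Fin 6) K4)ᵀ * Jm *
          (A : Matrix (Fin 6) (Fin 6) K4)) * (B : Matrix (Fin 6) (Fin 6) K4) := by
          simp only [Matrix.mul_assoc]
      _ = Jm := by rw [hA', hB']
  inv_mem' := by
    intro A hA
    have hA' : (A : Matrix (Fin 6) (Fin 6) K4)ᵀ * Jm * (A : Matrix (Fin 6) (Fin 6) K4) = Jm := hA
    show ((A⁻¹ : GL (Fin 6) K4) : Matrix (Fin 6) (Fin 6) K4)ᵀ * Jm *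
      ((A⁻¹ : GL (Fin 6) K4) : Matrix (Fin 6) (Fin 6) K4) = Jm
    calc ((A⁻¹ : GL (Fin 6) K4) : Matrix (Fin 6) (Fin 6) K4)ᵀ * Jm *
          ((A⁻¹ : GL (Fin 6) K4) : Matrix (Fin 6) (Fin 6) K4)
        = ((A⁻¹ : GL (Fin 6) K4) : Matrix (Fin 6) (Fin 6) K4)ᵀ *
          ((A : Matrix (Fin 6) (Fin 6) K4)ᵀ * Jm * (A : Matrix (Fin 6) (Fin 6) K4)) *
          ((A⁻¹ : GL (Fin 6) K4) : Matrix (Fin 6) (Fin 6) K4) := by rw [hA']
      _ = ((A : Matrix (Fin 6) (Fin 6) K4) *
            ((A⁻¹ : GL (Fin 6) K4) : Matrix (Fin 6) (Fin 6) K4))ᵀ * Jm *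
          ((A : Matrix (Fin 6) (Fin 6) K4) *
            ((A⁻¹ : GL (Fin 6) K4) : Matrix (Fin 6) (Fin 6) K4)) := by
          rw [Matrix.transpose_mul]
          simp only [Matrix.mul_assoc]
      _ = Jm := by
          rw [Units.mul_inv, Matrix.transpose_one, Matrix.one_mul, Matrix.mul_one]

theorem XG_mem_spG (hSymp : StSymp) (r : ℕ) (t : K4) : XG r t ∈ spG := hSymp r t

section rep

variable {G : Type u} [Group G] (ρ : G →* GL (Fin 6) K4) (x : ℕ → K4 → G)

/-- the matrix of an element -/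
def rv (y : G) : Matrix (Fin 6) (Fin 6) K4 :=
  ((ρ y : GL (Fin 6) K4) : Matrix (Fin 6) (Fin 6) K4)

theorem rv_mul (y z : G) : rv ρ (y * z) = rv ρ y * rv ρ z := by
  unfold rv
  rw [map_mul, Units.val_mul]

theorem rv_one : rv ρ 1 = 1 := by
  unfold rv
  rw [map_one, Units.val_one]

theorem rv_inj (hinj : Function.Injective ρ) {y z : G} (h : rv ρ y = rv ρ z) : y = z :=
  hinj (Units.ext h)

theorem rv_inv_of_sq {y : G} (h : rv ρ y * rv ρ y = 1) : rv ρ y⁻¹ = rv ρ y := by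
  have h1 : ρ y * ρ y = 1 := Units.ext (by rw [Units.val_mul]; exact h)
  unfold rv
  rw [map_inv, inv_eq_of_mul_eq_one_left h1]

theorem rv_inv_mul (y : G) : rv ρ y⁻¹ * rv ρ y = 1 := by
  rw [← rv_mul, inv_mul_cancel, rv_one]

/-- fixed under conjugation means commuting -/
theorem comm_of_conj (y : G) (X : Matrix (Fin 6) (Fin 6) K4)
    (hc : rv ρ y * X * rv ρ y⁻¹ = X) : rv ρ y * X = X * rv ρ y := by
  calc rv ρ y * X = rv ρ y * X * (rv ρ y⁻¹ * rv ρ y) := by rw [rv_inv_mul, mul_one]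
    _ = (rv ρ y * X * rv ρ y⁻¹) * rv ρ y := by simp only [mul_assoc]
    _ = X * rv ρ y := by rw [hc]

theorem rv_x (hx : ∀ r t, ρ (x r t) = XG r t) (r : ℕ) (t : K4) : rv ρ (x r t) = Xc r t := by
  unfold rv
  rw [hx]
  rfl

/-- the generators: words in root elements -/
def gG (i : ℕ) : G := ((wordL.getD i []).map fun p => x p.1 (kd p.2)).prod

theorem rho_list (hx : ∀ r t, ρ (x r t) = XG r t) (l : List (ℕ × ℕ)) :
    ρ ((l.map fun p => x p.1 (kd p.2)).prod) = (l.map fun p => XG p.1 (kd p.2)).prod := by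
  induction l with
  | nil => exact map_one ρ
  | cons p l ih =>
    rw [List.map_cons, List.prod_cons, List.map_cons, List.prod_cons, map_mul, ih, hx]

theorem XG_words_val (l : List (ℕ × ℕ)) :
    (((l.map fun p => XG p.1 (kd p.2)).prod : GL (Fin 6) K4) : Matrix (Fin 6) (Fin 6) K4) =
      wProd l := by
  induction l with
  | nil => rfl
  | cons p l ih =>
    rw [List.map_cons, List.prod_cons, Units.val_mul, ih]
    rfl

theorem rv_gG (hx : ∀ r t, ρ (x r t) = XG r t) (hW : StW) (i : ℕ) (hi : i < 5) :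
    rv ρ (gG x i) = mu (gI i) := by
  unfold rv gG
  rw [rho_list ρ x hx, XG_words_val]
  exact hW i hi

theorem gG_spG (hx : ∀ r t, ρ (x r t) = XG r t) (hSymp : StSymp) (i : ℕ) :
    ρ (gG x i) ∈ spG := by
  unfold gG
  rw [rho_list ρ x hx]
  apply Subgroup.list_prod_mem
  intro y hy
  rw [List.mem_map] at hy
  obtain ⟨p, _, rfl⟩ := hy
  exact XG_mem_spG hSymp _ _

theorem rv_list (hx : ∀ r t, ρ (x r t) = XG r t) (hW : StW) (l : List ℕ)
    (hl : ∀ s ∈ l, s < 4) : rv ρ ((l.map fun s => gG x s).prod) = mProd l := by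
  induction l with
  | nil => exact rv_one ρ
  | cons s l ih =>
    have hs : s < 4 := hl s List.mem_cons_self
    rw [List.map_cons, List.prod_cons, rv_mul, ih (fun t ht => hl t (List.mem_cons_of_mem _ ht)),
      rv_gG ρ x hx hW s (by omega)]
    rfl

theorem conj_sq (A S : Matrix (Fin 6) (Fin 6) K4) (hA : A * A = 1) (hS : S * S = 1) :
    (A * S * A) * (A * S * A) = 1 := by
  calc (A * S * A) * (A * S * A) = A * S * (A * A) * S * A := by simp only [mul_assoc]
    _ = A * (S * S) * A := by rw [hA, mul_one]; simp only [mul_assoc]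
    _ = 1 := by rw [hS, mul_one, hA]

/-- the assembly: a finite group of order `|G₂(4)|` with a faithful representation in `GL₆(K4)`
containing the root elements has an extremely primitive maximal subgroup isomorphic to `J` -/
theorem main (hDC : StDC.{u}) (hIso : StIso.{u}) (hPsi : StPsi.{u})
    (hW : StW) (hTB : StTB) (hCJ : StCJ) (hInj : StInj) (hCentJ : StCentJ) (hNA : StNA)
    (hWA : StWA) (hWB : StWB) (hB : StB) (hSymp : StSymp)
    (J : Type) [Group J] (hJcard : Nat.card J = 604800)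
    (hJ : ∃ (φ : J →* Equiv.Perm (Fin 315)) (f : Fin 5 → J),
      Function.Injective φ ∧ Subgroup.closure (Set.range f) = ⊤ ∧
      (∀ (i : Fin 5) (j : Fin 315), ((φ (f i)) j).val = tN i.val j.val) ∧
      IsCoatom (Subgroup.closure (f '' {i : Fin 5 | i.val < 4})) ∧
      (Subgroup.closure (f '' {i : Fin 5 | i.val < 4})).index = 100 ∧
      IsCoatom ((MulAction.stabilizer (Equiv.Perm (Fin 315)) (0 : Fin 315)).comap φ) ∧
      ((MulAction.stabilizer (Equiv.Perm (Fin 315)) (0 : Fin 315)).comap φ).index = 315)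
    (G : Type u) [Group G] [Finite G] (hcard : Nat.card G = 251596800)
    (ρ : G →* GL (Fin 6) K4) (x : ℕ → K4 → G) (hinj : Function.Injective ρ)
    (hx : ∀ r t, ρ (x r t) = XG r t) :
    ∃ H : Subgroup G, IsCoatom H ∧ Nonempty (↥H ≃* J) ∧
      ∀ y, y ∉ H → IsCoatom ((H ⊓ H.map (MulAut.conj y).toMonoidHom).subgroupOf H) := by
  obtain ⟨φ, f, hφ, hf, hφf, hU1, hU2, hC1, hC2⟩ := hJ
  have hrg : ∀ i : ℕ, i < 5 → rv ρ (gG x i) = mu (gI i) := fun i hi => rv_gG ρ x hx hW i hi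
  have hsq : ∀ i : ℕ, i < 5 → rv ρ (gG x i) * rv ρ (gG x i) = 1 := fun i hi => by
    rw [hrg i hi]
    exact hCJ.1 _ hi
  have hμinj : Function.Injective (fun j : Fin 315 => mu j.val) :=
    fun j k h => Fin.ext (hInj _ j.isLt _ k.isLt h)
  obtain ⟨ψ, hψ0⟩ := hPsi G (Matrix (Fin 6) (Fin 6) K4) ρ 315 (fun j => mu j.val) hμinj (Fin 5)
    (fun i => gG x i.val) (fun i j => ⟨tN i.val j.val, hTB _ i.isLt _ j.isLt⟩) (by
      intro i j
      have h1 := rv_inv_of_sq ρ (hsq i.val i.isLt)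
      have h2 := hrg i.val i.isLt
      unfold rv at h1 h2
      rw [← map_inv, h1, h2]
      exact hCJ.2 _ i.isLt _ j.isLt)
  have hψ : ∀ (h : ↥(Subgroup.closure (Set.range fun i : Fin 5 => gG x i.val))) (j : Fin 315),
      rv ρ (h : G) * mu j.val * rv ρ (h : G)⁻¹ = mu (ψ h j).val := by
    intro h j
    have h1 := hψ0 h j
    unfold rv
    rw [map_inv]
    exact h1
  have hsp : ∀ h : ↥(Subgroup.closure (Set.range fun i : Fin 5 => gG x i.val)),
      ρ (h : G) ∈ spG := by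
    intro h
    have hle : Subgroup.closure (Set.range fun i : Fin 5 => gG x i.val) ≤ spG.comap ρ := by
      rw [Subgroup.closure_le]
      rintro _ ⟨i, rfl⟩
      exact gG_spG ρ x hx hSymp i.val
    exact hle h.2
  have hψinj : Function.Injective ψ := by
    rw [injective_iff_map_eq_one]
    intro h hh
    have h1 : rv ρ (h : G) = 1 := by
      apply hCentJ
      · intro k hk
        have h2 := hψ h ⟨k, hk⟩
        rw [hh] at h2
        exact comm_of_conj ρ (h : G) (mu k) h2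
      · exact hsp h
    exact Subtype.ext (rv_inj ρ hinj (h1.trans (rv_one ρ).symm))
  have hcompat : ∀ i : Fin 5, φ (f i) = ψ ⟨gG x i.val, Subgroup.subset_closure ⟨i, rfl⟩⟩ := by
    intro i
    refine Equiv.ext fun j => Fin.ext ?_
    rw [hφf]
    apply hInj _ (hTB _ i.isLt _ j.isLt) _ (Fin.isLt _)
    have h1 : rv ρ (gG x i.val) * mu j.val * rv ρ (gG x i.val)⁻¹ =
        mu (ψ ⟨gG x i.val, Subgroup.subset_closure ⟨i, rfl⟩⟩ j).val :=
      hψ ⟨gG x i.val, Subgroup.subset_closure ⟨i, rfl⟩⟩ j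
    rw [← h1, rv_inv_of_sq ρ (hsq i.val i.isLt), hrg i.val i.isLt]
    exact (hCJ.2 _ i.isLt _ j.isLt).symm
  have hra : rv ρ (x 7 F4.o) = Xc 7 F4.o := rv_x ρ x hx 7 F4.o
  have hrb : rv ρ (x 11 F4.w) = Xc 11 F4.w := rv_x ρ x hx 11 F4.w
  have haa : x 7 F4.o * x 7 F4.o = 1 := rv_inj ρ hinj (by rw [rv_mul, hra, Xc_sq, rv_one])
  have hbb : x 11 F4.w * x 11 F4.w = 1 := rv_inj ρ hinj (by rw [rv_mul, hrb, Xc_sq, rv_one])
  have hainv : (x 7 F4.o)⁻¹ = x 7 F4.o := inv_eq_of_mul_eq_one_left haa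
  have ha : ∀ i : Fin 5, i.val < 4 → (x 7 F4.o)⁻¹ * gG x i.val * x 7 F4.o ∈
      Subgroup.closure ((fun i : Fin 5 => gG x i.val) '' {i : Fin 5 | i.val < 4}) := by
    intro i hi
    obtain ⟨hl, hm⟩ := hNA i.val hi
    have h1 : (x 7 F4.o)⁻¹ * gG x i.val * x 7 F4.o =
        ((aWordL.getD i.val []).map fun s => gG x s).prod := by
      apply rv_inj ρ hinj
      rw [hainv, rv_mul, rv_mul, hra, hrg i.val i.isLt, rv_list ρ x hx hW _ hl]
      exact hm
    rw [h1]
    apply Subgroup.list_prod_mem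
    intro y hy
    rw [List.mem_map] at hy
    obtain ⟨s, hs, rfl⟩ := hy
    have hs4 : s < 4 := hl s hs
    exact Subgroup.subset_closure ⟨⟨s, by omega⟩, hs4, rfl⟩
  have hb : ∀ c : ↥(Subgroup.closure (Set.range fun i : Fin 5 => gG x i.val)), ψ c 0 = 0 →
      (c : G) * x 11 F4.w = x 11 F4.w * (c : G) := by
    intro c hc
    have h1 : rv ρ (c : G) * mu 0 * rv ρ (c : G)⁻¹ = mu (ψ c 0).val := hψ c 0
    rw [hc] at h1
    have h2 : rv ρ (c : G) * mu 0 = mu 0 * rv ρ (c : G) := comm_of_conj ρ (c : G) (mu 0) h1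
    apply rv_inj ρ hinj
    rw [rv_mul, rv_mul, hrb, hB.2, ← hB.1, Matrix.mul_add, Matrix.add_mul, Matrix.mul_smul,
      Matrix.smul_mul, Matrix.mul_smul, Matrix.smul_mul, h2, Matrix.mul_one, Matrix.one_mul]
  have key : ∀ (a s : G), s ∈ Subgroup.closure (Set.range fun i : Fin 5 => gG x i.val) →
      a * a = 1 → rv ρ a * rv ρ a = 1 → rv ρ s * rv ρ s = 1 →
      Subgroup.closure (Set.range fun i : Fin 5 => gG x i.val) ≤
        (Subgroup.closure (Set.range fun i : Fin 5 => gG x i.val)).map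
          (MulAut.conj a).toMonoidHom →
      ∃ k, k < 315 ∧ (rv ρ a * rv ρ s * rv ρ a) * mu 0 * (rv ρ a * rv ρ s * rv ρ a) = mu k := by
    intro a s hs haa hAA hSS hle
    obtain ⟨h, hh, hc⟩ := hle hs
    have hc' : a * h * a⁻¹ = s := hc
    have hainv : a⁻¹ = a := inv_eq_of_mul_eq_one_left haa
    have hh2 : h = a * s * a := by
      rw [← hc', hainv]
      calc h = (a * a) * h * (a * a) := by rw [haa, one_mul, mul_one]
        _ = a * (a * h * a) * a := by simp only [mul_assoc]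
    have hrh : rv ρ h = rv ρ a * rv ρ s * rv ρ a := by rw [hh2, rv_mul, rv_mul]
    have hrhi : rv ρ h⁻¹ = rv ρ h := rv_inv_of_sq ρ (by rw [hrh]; exact conj_sq _ _ hAA hSS)
    have h3 : rv ρ h * mu 0 * rv ρ h⁻¹ = mu (ψ ⟨h, hh⟩ 0).val := hψ ⟨h, hh⟩ 0
    rw [hrhi, hrh] at h3
    exact ⟨_, Fin.isLt _, h3⟩
  have hna : ¬ Subgroup.closure (Set.range fun i : Fin 5 => gG x i.val) ≤
      (Subgroup.closure (Set.range fun i : Fin 5 => gG x i.val)).map
        (MulAut.conj (x 7 F4.o)).toMonoidHom := by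
    intro hle
    obtain ⟨k, hk, h⟩ := key (x 7 F4.o) (gG x 4) (Subgroup.subset_closure ⟨⟨4, by norm_num⟩, rfl⟩)
      haa (by rw [hra]; exact Xc_sq _ _) (hsq 4 (by norm_num)) hle
    rw [hra, hrg 4 (by norm_num)] at h
    exact hWA k hk h
  have hnb : ¬ Subgroup.closure (Set.range fun i : Fin 5 => gG x i.val) ≤
      (Subgroup.closure (Set.range fun i : Fin 5 => gG x i.val)).map
        (MulAut.conj (x 11 F4.w)).toMonoidHom := by
    intro hle
    obtain ⟨k, hk, h⟩ := key (x 11 F4.w) (gG x 1) (Subgroup.subset_closure ⟨⟨1, by norm_num⟩, rfl⟩)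
      hbb (by rw [hrb]; exact Xc_sq _ _) (hsq 1 (by norm_num)) hle
    rw [hrb, hrg 1 (by norm_num)] at h
    exact hWB k hk h
  exact core hDC hIso J G (fun i : Fin 5 => gG x i.val) (x 7 F4.o) (x 11 F4.w)
    (Subgroup.closure (Set.range fun i : Fin 5 => gG x i.val))
    (fun i => Subgroup.subset_closure ⟨i, rfl⟩) rfl φ f ψ hφ hψinj hf hcompat hU1 hU2 hC1 hC2
    ha hb hna hnb (by rw [hcard, hJcard])

end rep

end Cfsg.Agent.H9.XP
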