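import Mathlib
import Cfsg.Agent.H9.XPDefs

/-!
# S5746 (helper9 team project XP): the matrix-side pieces that are plain kernel evaluations

The conjugation table `StCJ` is checked in 15 chunks of 105 entries (one declaration each), which
keeps the memory of each kernel evaluation small.
-/

set_option autoImplicit false
set_option maxRecDepth 100000

namespace Cfsg.Agent.H9.XP

open Cfsg.Agent.H9.PG
open Cfsg.Agent.H94.HS (F4)

theorem stB : StB := by unfold StB; decide +kernel

theorem stW : StW := by unfold StW; decide +kernel

theorem stTB : StTB := by unfold StTB; decide +kernel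

theorem stNA : StNA := by unfold StNA; decide +kernel

theorem cjSq : ∀ i : ℕ, i < 5 → mu (gI i) * mu (gI i) = 1 := by decide +kernel

/-- the chunk of 105 entries from `k` on of the conjugation table of generator `i` -/
def CJc (i k : ℕ) : Prop :=
  ∀ j : ℕ, j < 105 → mu (gI i) * mu (k + j) * mu (gI i) = mu (tN i (k + j))

theorem cj00 : CJc 0 0 := by unfold CJc; decide +kernel

theorem cj01 : CJc 0 105 := by unfold CJc; decide +kernel

theorem cj02 : CJc 0 210 := by unfold CJc; decide +kernel

theorem cj10 : CJc 1 0 := by unfold CJc; decide +kernel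

theorem cj11 : CJc 1 105 := by unfold CJc; decide +kernel

theorem cj12 : CJc 1 210 := by unfold CJc; decide +kernel

theorem cj20 : CJc 2 0 := by unfold CJc; decide +kernel

theorem cj21 : CJc 2 105 := by unfold CJc; decide +kernel

theorem cj22 : CJc 2 210 := by unfold CJc; decide +kernel

theorem cj30 : CJc 3 0 := by unfold CJc; decide +kernel

theorem cj31 : CJc 3 105 := by unfold CJc; decide +kernel

theorem cj32 : CJc 3 210 := by unfold CJc; decide +kernel

theorem cj40 : CJc 4 0 := by unfold CJc; decide +kernel

theorem cj41 : CJc 4 105 := by unfold CJc; decide +kernel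

theorem cj42 : CJc 4 210 := by unfold CJc; decide +kernel


theorem cjAll (i : ℕ) (h0 : CJc i 0) (h1 : CJc i 105) (h2 : CJc i 210) :
    ∀ j : ℕ, j < 315 → mu (gI i) * mu j * mu (gI i) = mu (tN i j) := by
  intro j hj
  rcases lt_or_ge j 105 with h | h
  · have h3 := h0 j h
    rwa [Nat.zero_add] at h3
  · rcases lt_or_ge j 210 with h' | h'
    · have h3 := h1 (j - 105) (by omega)
      rwa [show 105 + (j - 105) = j by omega] at h3
    · have h3 := h2 (j - 210) (by omega)
      rwa [show 210 + (j - 210) = j by omega] at h3

theorem stCJ : StCJ := by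
  refine ⟨cjSq, ?_⟩
  intro i hi
  interval_cases i
  · exact cjAll 0 cj00 cj01 cj02
  · exact cjAll 1 cj10 cj11 cj12
  · exact cjAll 2 cj20 cj21 cj22
  · exact cjAll 3 cj30 cj31 cj32
  · exact cjAll 4 cj40 cj41 cj42

theorem stWA : StWA := by unfold StWA; decide +kernel

theorem stWB : StWB := by unfold StWB; decide +kernel

end Cfsg.Agent.H9.XP
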